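import Mathlib
import Cfsg.Agent.Base
import Cfsg.Agent.Lib.Push.CL

/-! The Chermak–Delgado lattice of a subgroup, in ambient form. -/

set_option autoImplicit false
set_option linter.unusedSectionVars false
set_option linter.style.haveILetI false

namespace H68.Push

open Subgroup H69 H24 Matrix Cfsg H70.CD
open scoped MatrixGroups commutatorElement Pointwise

variable {G : Type*} [Group G]

/-- `R` belongs to the Chermak–Delgado lattice of `S` -/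
def CDin (S R : Subgroup G) : Prop :=
  R ≤ S ∧ ∀ R' ≤ S, Nat.card R' * Nat.card (S ⊓ 𝐂(R') : Subgroup G) ≤
    Nat.card R * Nat.card (S ⊓ 𝐂(R) : Subgroup G)

theorem cdin_def {S R : Subgroup G} : CDin S R ↔
    R ≤ S ∧ ∀ R' ≤ S, Nat.card R' * Nat.card (S ⊓ 𝐂(R') : Subgroup G) ≤
      Nat.card R * Nat.card (S ⊓ 𝐂(R) : Subgroup G) := Iff.rfl

theorem mu_subtype {S : Subgroup G} (Q : Subgroup S) : mu Q =
    Nat.card (Q.map S.subtype) * Nat.card (S ⊓ 𝐂(Q.map S.subtype) : Subgroup G) := by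
  rw [mu_def, ← map_subtype_centralizer, H69.card_map_subtype, H69.card_map_subtype]

variable [Finite G]

theorem cdin_subtype_iff {S : Subgroup G} {Q : Subgroup S} :
    CDin S (Q.map S.subtype) ↔ IsCentralizerLarge Q := by
  refine ⟨fun h => large_of_le ?_, fun h => ⟨map_subtype_le Q, fun R hR => ?_⟩⟩
  · obtain ⟨R, hR⟩ := exists_large (P := S)
    rw [← large_iff.1 hR, mu_subtype, mu_subtype]
    exact h.2 _ (map_subtype_le R)
  · rw [← map_subgroupOf_eq_of_le hR, ← mu_subtype, ← mu_subtype, large_iff.1 h]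
    exact mu_le _

namespace CDin

variable {S Q R : Subgroup G}

theorem exists_sub (h : CDin S R) :
    ∃ Q : Subgroup S, IsCentralizerLarge Q ∧ Q.map S.subtype = R := by
  have h1 := map_subgroupOf_eq_of_le h.1
  exact ⟨R.subgroupOf S, cdin_subtype_iff.1 (by rwa [h1]), h1⟩

theorem sup (hQ : CDin S Q) (hR : CDin S R) : CDin S (Q ⊔ R) := by
  obtain ⟨Q, hQ', rfl⟩ := hQ.exists_sub
  obtain ⟨R, hR', rfl⟩ := hR.exists_sub
  rw [← Subgroup.map_sup]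
  exact cdin_subtype_iff.2 (Large.sup hQ' hR')

theorem inf (hQ : CDin S Q) (hR : CDin S R) : CDin S (Q ⊓ R) := by
  obtain ⟨Q, hQ', rfl⟩ := hQ.exists_sub
  obtain ⟨R, hR', rfl⟩ := hR.exists_sub
  rw [← map_inf _ _ _ S.subtype_injective]
  exact cdin_subtype_iff.2 (Large.inf hQ' hR')

theorem cent (hQ : CDin S Q) : CDin S (S ⊓ 𝐂(Q)) := by
  obtain ⟨Q, hQ', rfl⟩ := hQ.exists_sub
  rw [← map_subtype_centralizer]
  exact cdin_subtype_iff.2 (Large.centralizer hQ')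

theorem cent_cent (hQ : CDin S Q) : S ⊓ 𝐂(S ⊓ 𝐂(Q)) = Q := by
  obtain ⟨Q, hQ', rfl⟩ := hQ.exists_sub
  rw [← map_subtype_centralizer, ← map_subtype_centralizer, Large.centralizer_centralizer hQ']

theorem cent_inf (hQ : CDin S Q) (hR : CDin S R) :
    S ⊓ 𝐂(Q ⊓ R) = S ⊓ 𝐂(Q) ⊔ S ⊓ 𝐂(R) := by
  obtain ⟨Q, hQ', rfl⟩ := hQ.exists_sub
  obtain ⟨R, hR', rfl⟩ := hR.exists_sub
  rw [← map_inf _ _ _ S.subtype_injective, ← map_subtype_centralizer, ← map_subtype_centralizer,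
    ← map_subtype_centralizer, ← Subgroup.map_sup, Large.centralizer_inf hQ' hR']

theorem exists_mul (hQ : CDin S Q) (hR : CDin S R) {x : G} (hx : x ∈ Q ⊔ R) :
    ∃ a ∈ Q, ∃ b ∈ R, x = a * b := by
  obtain ⟨Q, hQ', rfl⟩ := hQ.exists_sub
  obtain ⟨R, hR', rfl⟩ := hR.exists_sub
  rw [← Subgroup.map_sup] at hx
  obtain ⟨x, hx, rfl⟩ := hx
  rw [Large.coe_sup hQ' hR'] at hx
  obtain ⟨a, ha, b, hb, rfl⟩ := hx
  exact ⟨a, ⟨a, ha, rfl⟩, b, ⟨b, hb, rfl⟩, rfl⟩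

theorem of_le (hQ : CDin S Q) (h1 : R ≤ S) (h2 : Nat.card Q * Nat.card (S ⊓ 𝐂(Q) : Subgroup G) ≤
    Nat.card R * Nat.card (S ⊓ 𝐂(R) : Subgroup G)) : CDin S R :=
  ⟨h1, fun X hX => (hQ.2 X hX).trans h2⟩

theorem cj (hQ : CDin S Q) {T : Subgroup G} (hT : T ≤ S) (h1 : Q ≤ T) (h2 : S ⊓ 𝐂(Q) ≤ T)
    {g : G} (hg : g ∈ 𝐍(T)) : CDin S (Q ^ᶜ g) := by
  refine hQ.of_le ((H69.cj_le_of_mem_normalizer h1 hg).trans hT) ?_
  rw [H69.card_cj, ← H69.card_cj (S ⊓ 𝐂(Q)) g]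
  refine Nat.mul_le_mul_left _ (card_le_of_le (le_inf
    ((H69.cj_le_of_mem_normalizer h2 hg).trans hT) ?_))
  rw [← H69.cj_centralizer]
  exact H69.cj_mono g inf_le_right

theorem ncl {L : Subgroup G} (h : ∀ g ∈ L, CDin S (Q ^ᶜ g)) : CDin S (ncl Q L) := by
  have h1 := sup_sSup_mem (p := CDin S) (S := Set.range fun l : L => Q ^ᶜ (l : G))
    (by rintro X hX _ ⟨l, rfl⟩; exact hX.sup (h l l.2)) (h 1 L.one_mem)
  rwa [H69.cj_one, sSup_range, ← ncl_def, sup_eq_right.2 (le_ncl Q L)] at h1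

theorem inf_sInf (hQ : CDin S Q) {𝒯 : Set (Subgroup G)} (h : ∀ X ∈ 𝒯, CDin S X) :
    CDin S (Q ⊓ sInf 𝒯) ∧ S ⊓ 𝐂(Q ⊓ sInf 𝒯) = S ⊓ 𝐂(Q) ⊔ ⨆ X ∈ 𝒯, S ⊓ 𝐂(X) := by
  induction 𝒯, Set.toFinite 𝒯 using Set.Finite.induction_on with
  | empty => simpa using hQ
  | @insert A T _ _ ih =>
    obtain ⟨h1, h2⟩ := ih fun X hX => h X (Set.mem_insert_of_mem _ hX)
    have h3 := h A (Set.mem_insert _ _)
    rw [sInf_insert, inf_comm A, ← inf_assoc, h1.cent_inf h3, h2, iSup_insert]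
    exact ⟨h1.inf h3, by rw [sup_assoc, sup_comm (S ⊓ 𝐂(A))]⟩

theorem cl (hQ : CDin S Q) (h : S ⊓ 𝐂(Q) ≤ Q) : CLin S Q := by
  obtain ⟨Q, hQ', rfl⟩ := hQ.exists_sub
  rw [← map_subtype_centralizer, H69.map_subtype_le_iff] at h
  exact clin_subtype_iff.2 (cl_iff.2 ⟨hQ', h⟩)

end CDin

theorem CLin.cd {S R : Subgroup G} (h : CLin S R) : CDin S R := by
  obtain ⟨Q, hQ, rfl⟩ := h.exists_sub
  exact cdin_subtype_iff.2 (CL.large hQ)

end H68.Push
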