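import Mathlib
import Cfsg.Agent.Base
import Cfsg.Agent.Lib.Push.CD
import Cfsg.Agent.Lib.Push.Amal6

/-! Glauberman–Niles: one pushing-up group over a `p`-group `S = J(S)` whose large abelian
subgroups are centrally large. -/

set_option autoImplicit false
set_option linter.unusedSectionVars false
set_option linter.style.haveILetI false

namespace H68.Push

open Subgroup H69 H24 Matrix Cfsg
open scoped MatrixGroups commutatorElement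

variable {X : Type*} [Group X]

theorem comm_mul_of_commute {c x y : X} (h : y * c = c * y) : ⁅c, x * y⁆ = ⁅c, x⁆ := by
  simp only [commutatorElement_def, _root_.mul_inv_rev]
  rw [mul_assoc (c * (x * y)), ← mul_assoc c⁻¹, ← _root_.mul_inv_rev, h]
  group

theorem conj_comm (g a b : X) : g * ⁅a, b⁆ * g⁻¹ = ⁅g * a * g⁻¹, g * b * g⁻¹⁆ := by
  simp only [commutatorElement_def]; group

theorem cdin_self [Finite X] {S : Subgroup X} (hJ : S ≤ thompsonSubgroupAOf S)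
    (hcl : ∀ A ∈ maxAb S, CLin S A) : CDin S S := by
  obtain ⟨A, hA⟩ := maxAb_nonempty S
  have := H70.CD.sup_sSup_mem (p := CDin S) (S := maxAb S)
    (fun Q hQ B hB => hQ.sup (hcl B hB).cd) (hcl A hA).cd
  rwa [← thompsonSubgroupAOf_eq_sSup, sup_eq_right.2 (le_thompsonSubgroupAOf hA),
    le_antisymm (thompsonSubgroupAOf_le S) hJ] at this

structure HG (p q : ℕ) (L S M : Subgroup X) : Prop extends PU p q L S M where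
  J : S ≤ thompsonSubgroupAOf S
  cl : ∀ A ∈ maxAb S, CLin S A
  eaZ : IsElementaryAbelian p (S ⊓ 𝐂(S) : Subgroup X)
  nz : ¬ L ≤ 𝐍(S ⊓ 𝐂(S))

namespace HG

variable [Finite X] {p q : ℕ} [Fact p.Prime] {L S M : Subgroup X}

theorem omega (h : HG p q L S M) : omegaOne p (S ⊓ 𝐂(S)) = S ⊓ 𝐂(S) :=
  le_antisymm (omegaOne_le _) fun _ hx => mem_omegaOne hx (h.eaZ.2 _ hx)

theorem gz (h : HG p q L S M) : GZ p q L S := ⟨⟨M, h.toPU⟩, by rw [h.omega]; exact h.nz⟩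

theorem fix (h : HG p q L S M) : zz p L ⊓ 𝐂(S) = S ⊓ 𝐂(S) := h.gz.fix_eq.trans h.omega

theorem Z_le (h : HG p q L S M) : S ⊓ 𝐂(S) ≤ zz p L := h.fix.ge.trans inf_le_left

theorem exists_off (h : HG p q L S M) : ∃ A ∈ maxAb S, ¬ A ≤ pCoreOf p L := by
  by_contra hn
  push Not at hn
  exact h.not_le_Q (h.J.trans (thompsonSubgroupAOf_le_iff.2 hn))

theorem off' (h : HG p q L S M) {A : Subgroup X} (hA : A ∈ maxAb S) (hAQ : ¬ A ≤ pCoreOf p L) :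
    S = A ⊔ pCoreOf p L ∧
      (∀ (F : Type) [Field F] [Finite F], Nat.card F = q → ∃ ρ ψ, NatSec F L (zz p L) ⊥ S ρ ψ) ∧
      A ⊓ pCoreOf p L ⊔ zz p L ∈ maxAb S := by
  rw [← maxEA_zero] at hA ⊢
  obtain ⟨h1, h2, h3, -⟩ := h.off hA hAQ h.gz.normZ h.gz.Z_le (ea_zero_iff.2 h.gz.ea.1) h.gz.not_res
  exact ⟨h1, h2, h3⟩

theorem nat' (h : HG p q L S M) (F : Type) [Field F] [Finite F] (hF : Nat.card F = q) :
    ∃ ρ ψ, NatSec F L (zz p L) ⊥ S ρ ψ := by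
  obtain ⟨A, hA, hAQ⟩ := h.exists_off
  exact (h.off' hA hAQ).2.1 F hF

theorem reg (h : HG p q L S M) {t v : X} (ht : t ∈ S) (ht' : t ∉ pCoreOf p L) (hv : v ∈ zz p L)
    (h1 : ⁅t, v⁆ ∈ 𝐂(L)) : v ∈ S ⊓ 𝐂(S) := by
  obtain ⟨F, _, _, hF, -⟩ := h.exists_field
  obtain ⟨ρ, ψ, hN⟩ := h.nat' F hF
  have := hN.reg ht (by rw [cm_bot]; exact fun h2 => ht' (h.gz.mem_Q_of_cZ ht h2)) hv
    (by rwa [cm_bot])
  rw [cm_bot] at this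
  exact ⟨h.gz.Z_le_T hv, this⟩

theorem reg_one (h : HG p q L S M) {t v : X} (ht : t ∈ S) (hv : v ∈ zz p L)
    (h1 : ⁅t, v⁆ ∈ 𝐂(L)) : ⁅t, v⁆ = 1 := by
  rw [commutatorElement_eq_one_iff_mul_comm]
  by_cases ht' : t ∈ pCoreOf p L
  · exact h.gz.Z_le_cQ hv t ht'
  · exact (mem_inf.1 (h.reg ht ht' hv h1)).2 t ht

theorem quad (h : HG p q L S M) : ⁅S, zz p L⁆ ≤ S ⊓ 𝐂(S) := by
  obtain ⟨F, _, _, hF, -⟩ := h.exists_field
  obtain ⟨ρ, ψ, hN⟩ := h.nat' F hF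
  simpa only [cm_bot, h.fix] using hN.quad

theorem card_V (h : HG p q L S M) :
    Nat.card (zz p L) = q * Nat.card (S ⊓ 𝐂(S) : Subgroup X) := by
  obtain ⟨F, _, _, hF, -⟩ := h.exists_field
  obtain ⟨ρ, ψ, hN⟩ := h.nat' F hF
  rw [hN.card_V', cm_bot, h.fix, hF]

theorem cdS (h : HG p q L S M) : CDin S S := cdin_self h.J h.cl

theorem cdT_aux (h : HG p q L S M) : CDin S (pCoreOf p L) ∧ S ⊓ 𝐂(pCoreOf p L) = zz p L := by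
  have h1 : zz p L ≤ S ⊓ 𝐂(pCoreOf p L) := le_inf h.gz.Z_le_T h.gz.Z_le_cQ
  have h2 : Nat.card S * Nat.card (S ⊓ 𝐂(S) : Subgroup X) =
      Nat.card (pCoreOf p L) * Nat.card (zz p L) := by
    rw [h.card, h.card_V]; ring
  refine ⟨h.cdS.of_le h.Q_le (h2 ▸ Nat.mul_le_mul_left _ (card_le_of_le h1)),
    (eq_of_le_of_card_ge h1 ?_).symm⟩
  exact Nat.le_of_mul_le_mul_left (h2 ▸ h.cdS.2 _ h.Q_le) Nat.card_pos

theorem cdT (h : HG p q L S M) : CDin S (pCoreOf p L) := h.cdT_aux.1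
theorem centT (h : HG p q L S M) : S ⊓ 𝐂(pCoreOf p L) = zz p L := h.cdT_aux.2
theorem cdV (h : HG p q L S M) : CDin S (zz p L) := h.centT ▸ h.cdT.cent
theorem centV (h : HG p q L S M) : S ⊓ 𝐂(zz p L) = pCoreOf p L := h.gz.inf_cZ

theorem cent_le (h : HG p q L S M) {P : Subgroup X} (h1 : zz p L ≤ P) :
    S ⊓ 𝐂(P) ≤ pCoreOf p L := (inf_le_inf_left _ (H69.centralizer_anti h1)).trans h.centV.le

theorem cd_cj (h : HG p q L S M) {P : Subgroup X} (hP : CDin S P) (h1 : zz p L ≤ P)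
    (h2 : P ≤ pCoreOf p L) {g : X} (hg : g ∈ L) : CDin S (P ^ᶜ g) :=
  hP.cj h.Q_le h2 (h.cent_le h1) (h.normQ hg)

theorem cj_T (h : HG p q L S M) {g : X} (hg : g ∈ L) : pCoreOf p L ^ᶜ g = pCoreOf p L :=
  cj_eq_of_mem_normalizer (h.normQ hg)

theorem cj_V (h : HG p q L S M) {g : X} (hg : g ∈ L) : zz p L ^ᶜ g = zz p L :=
  cj_eq_of_mem_normalizer (h.gz.normZ hg)

theorem cj_cent (h : HG p q L S M) {P : Subgroup X} (h1 : zz p L ≤ P) {g : X} (hg : g ∈ L) :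
    (S ⊓ 𝐂(P)) ^ᶜ g = S ⊓ 𝐂(P ^ᶜ g) := by
  have h2 : ∀ P, zz p L ≤ P → S ⊓ 𝐂(P) = pCoreOf p L ⊓ 𝐂(P) := fun P h1 =>
    le_antisymm (le_inf (h.cent_le h1) inf_le_right) (inf_le_inf_right _ h.Q_le)
  rw [h2 P h1, h2 _ ((h.cj_V hg).ge.trans (H69.cj_mono g h1)), H69.cj_inf, h.cj_T hg,
    H69.cj_centralizer]

theorem notMem_conj (h : HG p q L S M) {g a : X} (hg : g ∈ L) (hg' : g ∉ M) (ha : a ∈ S)
    (ha' : a ∉ pCoreOf p L) : g⁻¹ * a * g ∉ M := fun h1 =>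
  ha' (h.mem_Q_of_conj (L.inv_mem hg) (fun h2 => hg' (inv_mem_iff.1 h2)) ha (by rwa [inv_inv]))

theorem fix_two (h : HG p q L S M) {g a z : X} (hg : g ∈ L) (hg' : g ∉ M) (ha : a ∈ S)
    (ha' : a ∉ pCoreOf p L) (h1 : z ∈ 𝐂(S ^ᶜ g)) (h2 : a * z * a⁻¹ ∈ 𝐂(S ^ᶜ g)) : z ∈ 𝐂(L) := by
  have h3 := (h.cj_of_mem hg).sup_cj (L.inv_mem (h.le ha)) (by
    rw [H69.mem_cj]
    exact h.notMem_conj hg hg' (S.inv_mem ha) fun h3 => ha' (inv_mem_iff.1 h3))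
  rw [← h3, H69.centralizer_sup]
  refine ⟨h1, ?_⟩
  rw [← H69.cj_centralizer]
  exact H69.mem_cj.2 (by rwa [inv_inv])

theorem central (h : HG p q L S M) {N : Subgroup X} (hN : L ≤ 𝐍(N)) {s : X} (hs : s ∈ S)
    (hs' : s ∉ pCoreOf p L) (hc : N ≤ centralizer {s}) : N ⊓ zz p L ≤ 𝐂(L) := by
  refine le_centralizer_comm.1 (h.le_centralizer_of_normal (fun v hv => ?_)
    (le_normalizer_inf hN h.gz.normZ))
  refine (mem_inf.1 (h.reg hs hs' hv.2 ?_)).2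
  rw [commutatorElement_eq_one_iff_mul_comm.2 (hc hv.1 s rfl)]
  exact one_mem _

theorem lemX0 (h : HG p q L S M) {A P : Subgroup X} (hA : A ∈ maxAb S)
    (hAQ : ¬ A ≤ pCoreOf p L) (hP : CDin S P) {g c : X} (hg : g ∈ L) (hg' : g ∉ M) (hc : c ∈ A)
    (h1 : ∀ x ∈ P, ⁅c, x⁆ ∈ 𝐂(S ^ᶜ g)) {x : X} (hx : x ∈ P) : ⁅c, x⁆ ∈ 𝐂(L) := by
  obtain ⟨a, ha, ha'⟩ := SetLike.not_le_iff_exists.1 hAQ
  have hc' := isMulCommutative_iff_mem.1 hA.2.1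
  refine h.fix_two hg hg' (hA.1 ha) ha' (h1 x hx) ?_
  obtain ⟨y, hy, b, hb, e⟩ := hP.exists_mul (h.cl A hA).cd
    (mul_mem (mul_mem (mem_sup_right ha) (mem_sup_left hx)) (mem_sup_right (A.inv_mem ha)))
  rw [conj_comm, e, hc' a ha c hc, mul_inv_cancel_right, comm_mul_of_commute (hc' b hb c hc)]
  exact h1 y hy

theorem lemX1 (h : HG p q L S M) {A K : Subgroup X} (hA : A ∈ maxAb S)
    (hAQ : ¬ A ≤ pCoreOf p L) (hK : S ≤ 𝐍(K)) {g a : X} (hg : g ∈ L) (hg' : g ∉ M) (ha : a ∈ A)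
    (h1 : ∀ c ∈ K, ⁅c, a⁆ ∈ 𝐂(S ^ᶜ g)) {c : X} (hc : c ∈ K) : ⁅c, a⁆ ∈ 𝐂(L) := by
  obtain ⟨b, hb, hb'⟩ := SetLike.not_le_iff_exists.1 hAQ
  refine h.fix_two hg hg' (hA.1 hb) hb' (h1 c hc) ?_
  rw [conj_comm, isMulCommutative_iff_mem.1 hA.2.1 b hb a ha, mul_inv_cancel_right]
  exact h1 _ (H69.conj_mem_of_mem_normalizer (hK (hA.1 hb)) hc)

theorem conj_mem_cL {L : Subgroup X} {g z : X} (hg : g ∈ L) : g * z * g⁻¹ ∈ 𝐂(L) ↔ z ∈ 𝐂(L) := by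
  conv_lhs => rw [← cj_eq_of_mem_normalizer (le_normalizer_centralizer le_normalizer hg)]
  exact cj_mem_iff

/-- if `P^g` centralizes `A ∩ K` then `[K, P]` is central -/
theorem lemX2 (h : HG p q L S M) {A K P : Subgroup X} (hA : A ∈ maxAb S)
    (hAQ : ¬ A ≤ pCoreOf p L) (hK : CDin S K) (hn : L ≤ 𝐍(K)) (hPT : P ≤ pCoreOf p L) {g : X}
    (hg : g ∈ L) (hg' : g ∉ M) (h1 : ⁅K, P⁆ ≤ 𝐂(S)) (h2 : P ^ᶜ g ≤ 𝐂(A ⊓ K)) :
    ⁅K, P⁆ ≤ 𝐂(L) := by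
  have h3 : ⁅K, P ^ᶜ g⁆ ≤ 𝐂(S ^ᶜ g) := by
    rw [← cj_eq_of_mem_normalizer (hn hg), ← H69.cj_commutator, ← H69.cj_centralizer]
    exact H69.cj_mono g h1
  refine commutator_le.2 fun c hc x hx => ?_
  rw [← conj_mem_cL hg, conj_comm]
  have h4 : g * x * g⁻¹ ∈ S ⊓ 𝐂(A ⊓ K) :=
    ⟨h.Q_le (H69.conj_mem_of_mem_normalizer (h.normQ hg) (hPT hx)), h2 (cj_mem g hx)⟩
  rw [(h.cl A hA).cd.cent_inf hK, inf_centralizer_of_mem_maxAb hA] at h4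
  obtain ⟨a, ha, u, hu, e⟩ := (h.cl A hA).cd.exists_mul hK.cent h4
  have h5 : ∀ c ∈ K, ⁅c, g * x * g⁻¹⁆ = ⁅c, a⁆ := fun c hc => by
    rw [e, comm_mul_of_commute ((mem_inf.1 hu).2 c hc).symm]
  have h6 := H69.conj_mem_of_mem_normalizer (hn hg) hc
  rw [h5 _ h6]
  exact h.lemX1 hA hAQ (h.le.trans hn) hg hg' ha
    (fun c hc => h5 c hc ▸ h3 (commutator_mem_commutator hc (cj_mem g hx))) h6

theorem lemX3 (h : HG p q L S M) {A K P : Subgroup X} (hA : A ∈ maxAb S)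
    (hAQ : ¬ A ≤ pCoreOf p L) (hn : L ≤ 𝐍(K)) (hP : CDin S P) (hVP : zz p L ≤ P)
    (hPT : P ≤ pCoreOf p L) {g : X} (hg : g ∈ L) (hg' : g ∉ M) (h1 : ⁅K, P⁆ ≤ 𝐂(S)) :
    ⁅(A ⊓ K) ^ᶜ g⁻¹, P⁆ ≤ 𝐂(L) := by
  have h3 : ⁅K, P ^ᶜ g⁆ ≤ 𝐂(S ^ᶜ g) := by
    rw [← cj_eq_of_mem_normalizer (hn hg), ← H69.cj_commutator, ← H69.cj_centralizer]
    exact H69.cj_mono g h1
  refine commutator_le.2 fun c hc x hx => ?_
  rw [← conj_mem_cL hg, conj_comm]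
  rw [H69.mem_cj, inv_inv] at hc
  exact h.lemX0 hA hAQ (h.cd_cj hP hVP hPT hg) hg hg' hc.1
    (fun y hy => h3 (commutator_mem_commutator hc.2 hy)) (cj_mem g hx)

theorem lemX (h : HG p q L S M) {K P : Subgroup X} (hK : CDin S K) (hn : L ≤ 𝐍(K))
    (hP : CDin S P) (hVP : zz p L ≤ P) (hPT : P ≤ pCoreOf p L) (h1 : ⁅K, P⁆ ≤ 𝐂(S))
    (h2 : ∀ c ∈ K, ∀ x ∈ P, ⁅c, x⁆ ∈ 𝐂(L) → ⁅c, x⁆ = 1) : P ≤ 𝐂(K) := by
  obtain ⟨A, hA, hAQ⟩ := h.exists_off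
  obtain ⟨g, hg, hg'⟩ := h.exists_notMem
  have h3 := h.lemX3 hA hAQ hn hP hVP hPT hg hg' h1
  have h4 := h.lemX2 hA hAQ hK hn hPT hg hg' h1 (by
    rw [H69.cj_le_iff, H69.cj_centralizer]
    intro x hx c hc
    exact commutatorElement_eq_one_iff_mul_comm.1 (h2 c
      (H69.cj_le_of_mem_normalizer inf_le_right (hn (L.inv_mem hg)) hc) x hx
      (h3 (commutator_mem_commutator hc hx))))
  exact fun x hx c hc => commutatorElement_eq_one_iff_mul_comm.1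
    (h2 c hc x hx (h4 (commutator_mem_commutator hc hx)))

end HG

end H68.Push
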