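import Mathlib
import Cfsg.Agent.Base
import Cfsg.Agent.Lib.Push.GN1

/-! Glauberman–Niles: two pushing-up groups over the same `p`-group. -/

set_option autoImplicit false
set_option linter.unusedSectionVars false
set_option linter.style.haveILetI false

namespace H68.Push

open Subgroup H69 H24 Matrix Cfsg
open scoped MatrixGroups commutatorElement

variable {X : Type*} [Group X]

/-- the Frattini subgroup in ambient form -/
def fr (S : Subgroup X) : Subgroup X := (frattini S).map S.subtype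

/-- the subgroup `S₀` of Glauberman and Niles -/
noncomputable def s0 (p : ℕ) (S : Subgroup X) : Subgroup X :=
  if p = 2 then ⁅fr S, S⁆ ⊔ fr (fr S) else if p = 3 then ⁅⁅fr S, S⁆, S⁆ ⊔ fr (fr S)
  else ⁅fr S, S⁆ ⊔ powerClosure p 1 S

theorem fr_le (S : Subgroup X) : fr S ≤ S := map_subtype_le _

variable [Finite X] {p q q' : ℕ} [Fact p.Prime] {L L' S M M' : Subgroup X}

theorem map_fr {G : Type*} [Group G] {f : X →* G} (hf : Function.Injective f) (S : Subgroup X) :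
    (fr S).map f = fr (S.map f) := map_frattini_map hf S

theorem cj_fr (S : Subgroup X) (g : X) : fr S ^ᶜ g = fr (S ^ᶜ g) :=
  map_frattini_map (MulAut.conj g).injective S

theorem normalizer_le_fr (S : Subgroup X) : 𝐍(S) ≤ 𝐍(fr S) :=
  normalizer_le_normalizer_of_cj fun g hg => by rw [cj_fr, hg]

theorem map_s0 {G : Type*} [Group G] {f : X →* G} (hf : Function.Injective f) (p : ℕ)
    (S : Subgroup X) : (s0 p S).map f = s0 p (S.map f) := by
  unfold s0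
  split_ifs <;> simp only [Subgroup.map_sup, map_commutator, map_fr hf, H81.map_powerClosure]

theorem fr_sup_ea {D Y : Subgroup X} (hp : IsPGroup p (D ⊔ Y : Subgroup X))
    (hY : IsElementaryAbelian p Y) (h : Y ≤ 𝐂(D)) : fr (D ⊔ Y) = fr D :=
  frattini_sup_central hp (by rw [H69.centralizer_sup]; exact le_inf h (EA.le_centralizer hY))
    fun z hz => by rw [EA.pow_eq_one hY hz]; exact one_mem _

theorem comm_sup_cent {N Z : Subgroup X} (hn : S ≤ 𝐍(N)) (hN : N ≤ S) (hZ : Z ≤ S ⊓ 𝐂(S)) :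
    ⁅N ⊔ Z, S⁆ ≤ N :=
  commutator_sup_le_left (hN.trans hn) ((hZ.trans inf_le_left).trans hn)
    (H69.commutator_le_left_of_le_normalizer hn)
    ((commutator_eq_bot_of_le_centralizer (hZ.trans inf_le_right)).le.trans bot_le)

theorem s0_le (hS : IsPGroup p S) {N Z : Subgroup X} (hn : S ≤ 𝐍(N)) (hN : N ≤ S)
    (hZ : Z ≤ S ⊓ 𝐂(S)) (hZe : IsElementaryAbelian p Z) (h1 : fr S ≤ N ⊔ Z)
    (h2 : p ≠ 2 → ∀ s ∈ S, s ^ p ∈ N) : s0 p S ≤ N := by
  have h3 : ⁅fr S, S⁆ ≤ N := (commutator_mono h1 le_rfl).trans (comm_sup_cent hn hN hZ)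
  have hp := hS.to_le (sup_le hN (hZ.trans inf_le_left))
  have h4 : fr (fr S) ≤ N := (H5.map_frattini_mono hp h1).trans ((fr_sup_ea hp hZe
    ((hZ.trans inf_le_right).trans (H69.centralizer_anti hN))).le.trans (fr_le N))
  unfold s0
  split_ifs with h5
  · exact sup_le h3 h4
  · exact sup_le ((commutator_mono h3 le_rfl).trans (H69.commutator_le_left_of_le_normalizer hn)) h4
  · exact sup_le h3 (H81.powerClosure_le_iff.2 fun x hx => by rw [pow_one]; exact h2 h5 x hx)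

local notation "T" => pCoreOf p L
local notation "T'" => pCoreOf p L'
local notation "V" => zz p L
local notation "V'" => zz p L'

namespace HG

theorem normC (h : HG p q L S M) : S ≤ 𝐍(𝐂(L)) :=
  h.le.trans (le_normalizer_centralizer le_normalizer)

theorem not_V_le (h : HG p q L S M) : ¬ V ≤ S ⊓ 𝐂(S) := fun h1 => by
  have h2 := card_le_of_le h1
  rw [h.card_V] at h2
  have := h.one_lt
  nlinarith [Nat.card_pos (α := (S ⊓ 𝐂(S) : Subgroup X))]

theorem inf_le_Z (h : HG p q L S M) {B : Subgroup X} (hB : B ≤ S) (hB' : ¬ B ≤ T) :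
    V ⊓ 𝐂(B) ≤ S ⊓ 𝐂(S) := fun v hv => by
  obtain ⟨t, ht, ht'⟩ := SetLike.not_le_iff_exists.1 hB'
  refine h.reg (hB ht) ht' hv.1 ?_
  rw [commutatorElement_eq_one_iff_mul_comm.2 ((mem_inf.1 hv).2 t ht)]
  exact one_mem _

theorem not_le_of_ne (h : HG p q L S M) (h' : HG p q' L' S M') (hne : T ≠ T') : ¬ T' ≤ T := by
  intro h1
  have h2 : ¬ T ≤ T' := fun h2 => hne (le_antisymm h2 h1)
  refine h.not_V_le fun v hv => h'.inf_le_Z h.Q_le h2 ⟨?_, h.gz.Z_le_cQ hv⟩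
  rw [← h'.centT]
  exact ⟨h.gz.Z_le_T hv, H69.centralizer_anti h1 (h.gz.Z_le_cQ hv)⟩

theorem cent_Z (S : Subgroup X) : S ⊓ 𝐂(S ⊓ 𝐂(S)) = S :=
  inf_eq_left.2 (le_centralizer_comm.1 inf_le_right)

theorem VV (h : HG p q L S M) (h' : HG p q' L' S M') (hne : T ≠ T') : V ⊓ V' = S ⊓ 𝐂(S) :=
  le_antisymm ((inf_le_inf_left _ h'.gz.Z_le_cQ).trans
    (h.inf_le_Z h'.Q_le (h.not_le_of_ne h' hne))) (le_inf h.Z_le h'.Z_le)

theorem sup_T (h : HG p q L S M) (h' : HG p q' L' S M') (hne : T ≠ T') : S = T ⊔ T' := by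
  rw [← h.centV, ← h'.centV, ← h.cdV.cent_inf h'.cdV, h.VV h' hne, cent_Z]

theorem centD (h : HG p q L S M) (h' : HG p q' L' S M') : S ⊓ 𝐂(T ⊓ T') = V ⊔ V' := by
  rw [h.cdT.cent_inf h'.cdT, h.centT, h'.centT]

theorem centY (h : HG p q L S M) (h' : HG p q' L' S M') : S ⊓ 𝐂(V ⊔ V') = T ⊓ T' := by
  rw [← h.centD h', (h.cdT.inf h'.cdT).cent_cent]

theorem b1_sup (h : HG p q L S M) (h' : HG p q' L' S M') (h1 : ¬ V' ≤ T) : S = T ⊔ V' := by
  have h2 : V ⊓ T' = S ⊓ 𝐂(S) := le_antisymm ((inf_le_inf_left _ h'.gz.Q_le_cZ).trans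
    (h.inf_le_Z h'.gz.Z_le_T h1)) (le_inf h.Z_le (h'.Z_le.trans h'.gz.Z_le_Q))
  rw [← h.centV, ← h'.centT, ← h.cdV.cent_inf h'.cdT, h2, cent_Z]

theorem le_symm (h : HG p q L S M) (h' : HG p q' L' S M') (h1 : V' ≤ T) : V ≤ T' :=
  h'.gz.le_Q_of_cZ h.gz.Z_le_T (le_centralizer_comm.1 (h1.trans h.gz.Q_le_cZ))

theorem b1 (h : HG p q L S M) (h' : HG p q' L' S M') (h1 : ¬ V' ≤ T) :
    S ⊓ 𝐂(S) ⊓ s0 p S ≤ 𝐂(L) := by
  have h2 : V ⊔ T ⊓ T' = T := by
    rw [inf_comm, ← dedekind_right ((h.gz.Z_le_T.trans h'.le).trans h'.normQ) h.gz.Z_le_Q,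
      sup_comm, ← h'.b1_sup h fun h2 => h1 (h'.le_symm h h2), inf_eq_right.2 h.Q_le]
  have hY : V ⊔ V' ≤ 𝐂(T ⊓ T') := (h.centD h').ge.trans inf_le_right
  have hYS : V ⊔ V' ≤ S := sup_le h.gz.Z_le_T h'.gz.Z_le_T
  have hD : T ⊓ T' ≤ S := inf_le_left.trans h.Q_le
  have h3 : fr T = fr (T ⊓ T') := by
    conv_lhs => rw [← h2, sup_comm]
    exact fr_sup_ea (h.isP.to_le (sup_le hD h.gz.Z_le_T)) h.gz.ea (le_sup_left.trans hY)
  have h4 : S = T ⊓ T' ⊔ (V ⊔ V') := by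
    rw [← sup_assoc, sup_comm (T ⊓ T'), h2, ← h.b1_sup h' h1]
  have hn : L ≤ 𝐍(fr (T ⊓ T')) := h3 ▸ h.normQ.trans (normalizer_le_fr _)
  have hN : fr (T ⊓ T') ≤ S := (fr_le _).trans hD
  have hn' : S ≤ 𝐍(fr (T ⊓ T') ⊔ S ⊓ 𝐂(S)) := le_normalizer_sup (h.le.trans hn)
    (le_normalizer_inf le_normalizer (le_normalizer_centralizer le_normalizer))
  have hq : ⁅S, V ⊔ V'⁆ ≤ fr (T ⊓ T') ⊔ S ⊓ 𝐂(S) := commutator_sup_le_right
    (h.gz.Z_le_T.trans hn') (h'.gz.Z_le_T.trans hn') (h.quad.trans le_sup_right)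
    (h'.quad.trans le_sup_right)
  have hpow : ∀ y ∈ V ⊔ V', ∃ z ∈ S ⊓ 𝐂(S), y ^ p = z ^ p.choose 2 := fun y hy => by
    obtain ⟨v, hv, w, hw, rfl⟩ := (mem_sup_of_le_normalizer_right
      ((h.gz.Z_le_T.trans h'.le).trans h'.gz.normZ)).1 hy
    have hz := h.quad (commutator_mem_commutator (h'.gz.Z_le_T hw) hv)
    refine ⟨_, hz, ?_⟩
    rw [H5.mul_pow_of_class_two ((mem_inf.1 hz).2 v (h.gz.Z_le_T hv))
      ((mem_inf.1 hz).2 w (h'.gz.Z_le_T hw)), EA.pow_eq_one h.gz.ea hv,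
      EA.pow_eq_one h'.gz.ea hw, one_mul, one_mul]
  have h5 : s0 p S ≤ fr (T ⊓ T') := by
    refine s0_le h.isP (h.le.trans hn) hN le_rfl h.eaZ ((H5.map_frattini_le_iff h.isP).2 ⟨?_, ?_⟩)
      fun hp => ?_
    · refine (commutator_mono le_rfl h4.le).trans (commutator_sup_le_right (hD.trans hn')
        (hYS.trans hn') ?_ hq)
      refine (commutator_mono h4.le le_rfl).trans (commutator_sup_le_left (hD.trans hn')
        (hYS.trans hn') ((H5.commutator_le_map_frattini (h.isP.to_le hD)).trans le_sup_left) ?_)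
      rw [commutator_eq_bot_of_le_centralizer hY]
      exact bot_le
    · intro x hx
      refine pow_mem_of_sup hY (fun x hx => mem_sup_left
        (H5.pow_mem_map_frattini (h.isP.to_le hD) hx)) (fun y hy => ?_) x (h4.le hx)
      obtain ⟨z, hz, e⟩ := hpow y hy
      exact e ▸ mem_sup_right (pow_mem hz _)
    · intro x hx
      refine pow_mem_of_sup hY (fun x hx =>
        H5.pow_mem_map_frattini (h.isP.to_le hD) hx) (fun y hy => ?_) x (h4.le hx)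
      obtain ⟨z, hz, e⟩ := hpow y hy
      obtain ⟨k, hk⟩ : p ∣ p.choose 2 := (Fact.out : p.Prime).dvd_choose_self two_ne_zero
        (lt_of_le_of_ne (Fact.out : p.Prime).two_le (Ne.symm hp))
      rw [e, hk, pow_mul, EA.pow_eq_one h.eaZ hz, one_pow]
      exact one_mem _
  obtain ⟨s, hs, hs'⟩ := SetLike.not_le_iff_exists.1 h1
  refine le_trans (fun x hx => mem_inf.2 ⟨h5 hx.2, h.Z_le hx.1⟩)
    (h.central hn (h'.gz.Z_le_T hs) hs' fun x hx => mem_centralizer_singleton_iff.2 ?_)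
  exact hY (mem_sup_right hs) x (fr_le _ hx)

end HG

/-- two groups with commuting modules -/
structure H2 (p q q' : ℕ) (L L' S M M' : Subgroup X) : Prop where
  h : HG p q L S M
  h' : HG p q' L' S M'
  ne : pCoreOf p L ≠ pCoreOf p L'
  le : zz p L' ≤ pCoreOf p L

namespace H2

theorem symm (H : H2 p q q' L L' S M M') : H2 p q' q L' L S M' M :=
  ⟨H.h', H.h, H.ne.symm, H.h.le_symm H.h' H.le⟩

theorem YT (H : H2 p q q' L L' S M M') : V ⊔ V' ≤ T := sup_le H.h.gz.Z_le_Q H.le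
theorem YT' (H : H2 p q q' L L' S M M') : V ⊔ V' ≤ T' := sup_le H.symm.le H.h'.gz.Z_le_Q
theorem YD (H : H2 p q q' L L' S M M') : V ⊔ V' ≤ T ⊓ T' := le_inf H.YT H.YT'
theorem cdY (H : H2 p q q' L L' S M M') : CDin S (V ⊔ V') := H.h.cdV.sup H.h'.cdV
theorem cdD (H : H2 p q q' L L' S M M') : CDin S (T ⊓ T') := H.h.cdT.inf H.h'.cdT
theorem DcY (H : H2 p q q' L L' S M M') : T ⊓ T' ≤ 𝐂(V ⊔ V') :=
  (H.h.centY H.h').ge.trans inf_le_right
theorem eaY (H : H2 p q q' L L' S M M') : IsElementaryAbelian p (V ⊔ V' : Subgroup X) :=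
  EA.sup H.h.gz.ea H.h'.gz.ea (H.symm.le.trans H.h'.gz.Q_le_cZ)

theorem exists_mul (H : H2 p q q' L L' S M M') {y : X} (hy : y ∈ V ⊔ V') :
    ∃ v ∈ V, ∃ w ∈ V', y = v * w := H.h.cdV.exists_mul H.h'.cdV hy

theorem commTY (H : H2 p q q' L L' S M M') : ⁅T, V ⊔ V'⁆ ≤ S ⊓ 𝐂(S) := by
  rw [sup_comm, commutator_sup_eq_of_le_centralizer_right H.h.gz.Z_le_cQ
    ((H.h.gz.Z_le_T.trans H.h'.le).trans H.h'.gz.normZ)]
  exact (commutator_mono H.h.Q_le le_rfl).trans H.h'.quad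

theorem stepA (H : H2 p q q' L L' S M M') : ⁅S, V'⁆ ≤ 𝐂(L) := by
  have h := H.h
  have h' := H.h'
  obtain ⟨A, hA, hAQ⟩ := h.exists_off
  obtain ⟨g, hg, hg'⟩ := h.exists_notMem
  have h1 := H.commTY.trans inf_le_right
  have hn := h.normC
  suffices h2 : ⁅T, V ⊔ V'⁆ ≤ 𝐂(L) by
    rw [h.sup_T h' H.ne]
    exact commutator_sup_le_left (h.Q_le.trans hn) (h'.Q_le.trans hn)
      ((commutator_mono le_rfl le_sup_right).trans h2)
      ((commutator_eq_bot_of_le_centralizer h'.gz.Q_le_cZ).le.trans bot_le)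
  by_cases h2 : (V ⊔ V') ^ᶜ g ≤ 𝐂(A ⊓ T)
  · exact h.lemX2 hA hAQ h.cdT h.normQ H.YT hg hg' h1 h2
  have h3 := h.lemX3 hA hAQ h.normQ H.cdY le_sup_left H.YT hg hg' h1
  have h4 := (h.off' hA hAQ).2.2
  have hB : (A ⊓ T) ^ᶜ g⁻¹ ≤ T := H69.cj_le_of_mem_normalizer inf_le_right (h.normQ (inv_mem hg))
  have h5 : (A ⊓ T) ^ᶜ g⁻¹ ⊔ V ∈ maxAb S := by
    rw [← h.cj_V (inv_mem hg), ← H69.cj_sup]
    exact mem_maxAb_of_card_le h4 ((H69.cj_le_of_mem_normalizer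
      (sup_le inf_le_right h.gz.Z_le_Q) (h.normQ (inv_mem hg))).trans h.Q_le)
      ((isMulCommutative_map_iff (MulAut.conj g⁻¹).injective).2 h4.2.1) (H69.card_cj _ _).ge
  have h6 : ¬ (A ⊓ T) ^ᶜ g⁻¹ ⊔ V ≤ T' := fun h6 => h2 (by
    rw [H69.cj_le_iff, H69.cj_centralizer, le_centralizer_comm]
    exact (le_inf hB (le_sup_left.trans h6)).trans H.DcY)
  have h7 := dedekind_right (C := T) ((h5.1.trans h'.le).trans h'.normQ) (sup_le hB h.gz.Z_le_Q)
  rw [← (h'.off' h5 h6).1, inf_eq_right.2 h.Q_le, inf_comm T'] at h7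
  rw [h7]
  refine commutator_sup_le_left (h5.1.trans hn) ((inf_le_left.trans h.Q_le).trans hn)
    (commutator_sup_le_left ((hB.trans h.Q_le).trans hn) (h.gz.Z_le_T.trans hn) h3 ?_) ?_
  · rw [commutator_eq_bot_of_le_centralizer ((le_sup_left.trans H.YD).trans H.DcY)]
    exact bot_le
  · rw [commutator_eq_bot_of_le_centralizer H.DcY]
    exact bot_le

theorem comm_cj (H : H2 p q q' L L' S M M') {k c x : X} (hk : k ∈ L') (hc : c ∈ T')
    (hx : x ∈ V ^ᶜ k) : ∃ t ∈ S, ∃ v ∈ V, ⁅c, x⁆ = ⁅t, v⁆ := by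
  obtain ⟨v, hv, rfl⟩ := mem_cj'.1 hx
  have h1 := H.h'.Q_le (H69.conj_mem_of_mem_normalizer' (H.h'.normQ hk) hc)
  refine ⟨_, h1, v, hv, ?_⟩
  rw [← conj_eq_of_mem_centralizer (le_centralizer_comm.1 (le_refl 𝐂(L')) hk)
    (H.symm.stepA (commutator_mem_commutator h1 hv)), conj_comm]
  congr 1
  group

theorem stepB (H : H2 p q q' L L' S M M') {k : X} (hk : k ∈ L') (h1 : V ^ᶜ k ≤ T) :
    V ^ᶜ k ≤ V ⊔ V' := by
  have h := H.h
  have h' := H.h'
  have hU : CDin S (ncl (V ⊔ V') L) := CDin.ncl fun g hg => h.cd_cj H.cdY le_sup_left H.YT hg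
  have hUT : ncl (V ⊔ V') L ≤ T := ncl_le H.YT h.normQ
  have hYU := le_ncl (V ⊔ V') L
  have hK : S ⊓ 𝐂(ncl (V ⊔ V') L) ≤ T' :=
    ((inf_le_inf_left _ (H69.centralizer_anti hYU)).trans (h.centY h').le).trans inf_le_right
  have hP := h'.cd_cj H.cdY le_sup_right H.YT' hk
  have e : (V ⊔ V') ^ᶜ k = V ^ᶜ k ⊔ V' := by rw [H69.cj_sup, h'.cj_V hk]
  have key : ∀ c ∈ S ⊓ 𝐂(ncl (V ⊔ V') L), ∀ x ∈ (V ⊔ V') ^ᶜ k ⊔ ncl (V ⊔ V') L,
      ∃ t ∈ S, ∃ v ∈ V, ⁅c, x⁆ = ⁅t, v⁆ := fun c hc x hx => by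
    rw [e, sup_assoc, sup_eq_right.2 (le_sup_right.trans hYU)] at hx
    obtain ⟨a, ha, u, hu, rfl⟩ := (mem_sup_of_le_normalizer_right
      (((h1.trans h.Q_le).trans h.le).trans (le_normalizer_ncl _ _))).1 hx
    rw [comm_mul_of_commute ((mem_inf.1 hc).2 u hu)]
    exact H.comm_cj hk (hK hc) ha
  have h2 := h.lemX hU.cent (by
      rw [le_antisymm (le_inf (h.cent_le (le_sup_left.trans hYU)) inf_le_right)
        (inf_le_inf_right _ h.Q_le)]
      exact le_normalizer_inf h.normQ (le_normalizer_centralizer (le_normalizer_ncl _ _)))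
    (hP.sup hU) ((le_sup_left.trans hYU).trans le_sup_right)
    (sup_le (e ▸ sup_le h1 H.le) hUT)
    (commutator_le.2 fun c hc x hx => by
      obtain ⟨t, ht, v, hv, e⟩ := key c hc x hx
      exact e ▸ (h.quad (commutator_mem_commutator ht hv)).2)
    (fun c hc x hx h3 => by
      obtain ⟨t, ht, v, hv, e⟩ := key c hc x hx
      rw [e] at h3 ⊢
      exact h.reg_one ht hv h3)
  have h3 : V ^ᶜ k ≤ ncl (V ⊔ V') L := by
    rw [← hU.cent_cent]
    exact le_inf (h1.trans h.Q_le) (((H69.cj_mono k le_sup_left).trans le_sup_left).trans h2)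
  have h4 : ⁅ncl (V ⊔ V') L, T⁆ ≤ 𝐂(L) := ncl_comm_le (by
      rw [Subgroup.commutator_comm, sup_comm, commutator_sup_eq_of_le_centralizer_right
        h.gz.Z_le_cQ ((h.gz.Z_le_T.trans h'.le).trans h'.gz.normZ)]
      exact (commutator_mono h.Q_le le_rfl).trans H.stepA)
    (le_normalizer_centralizer le_normalizer) h.normQ ((H.YT.trans h.Q_le).trans h.normC)
  rw [← h.centD h']
  refine le_inf (h1.trans h.Q_le) fun x hx c hc => ?_
  obtain ⟨t, ht, v, hv, e⟩ := H.comm_cj hk hc.2 hx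
  rw [← commutatorElement_eq_one_iff_mul_comm, e]
  refine h.reg_one ht hv ?_
  rw [← e, ← commutatorElement_inv]
  exact inv_mem (h4 (commutator_mem_commutator (h3 hx) hc.1))

end H2

end H68.Push
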