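import Mathlib
import Cfsg.Agent.Base
import Cfsg.Agent.Lib.Push.GN2

/-! Glauberman–Niles: the main theorem on two pushing-up groups. -/

set_option autoImplicit false
set_option linter.unusedSectionVars false
set_option linter.style.haveILetI false

namespace H68.Push

open Subgroup H69 H24 Matrix Cfsg
open scoped MatrixGroups commutatorElement

variable {X : Type*} [Group X] [Finite X] {p q q' : ℕ} [Fact p.Prime] {L L' S M M' : Subgroup X}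

local notation "T" => pCoreOf p L
local notation "T'" => pCoreOf p L'
local notation "V" => zz p L
local notation "V'" => zz p L'

theorem HG.exists_compl (h : HG p q L S M) (hp : p ≠ 2) (h1 : ⁅T, 𝐑(p, L)⁆ ≤ V) :
    ∃ C : Subgroup X, L ≤ 𝐍(C) ∧ (∀ t ∈ T, ∃ c ∈ C, ∃ v ∈ V, t = c * v) ∧ C ⊓ V ≤ 𝐂(L) := by
  obtain ⟨F, _, _, hF, hchar⟩ := h.exists_field
  obtain ⟨ρ, ψ, hN⟩ := h.nat' F hF
  have h2 : (2 : F) ≠ 0 := fun h1 => hp ((Nat.prime_dvd_prime_iff_eq Fact.out Nat.prime_two).1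
    ((CharP.cast_eq_zero_iff F p 2).1 (by exact_mod_cast h1)))
  have hc : L ⊓ 𝐂(V) ≤ T := h.gz.le_Q_of_res inf_le_left (le_normalizer_inf Subgroup.le_normalizer
    (le_normalizer_centralizer h.gz.normZ))
    (((commutator_mono le_rfl (res_mono inf_le_left)).trans h1).trans
      (le_centralizer_comm.1 ((H69.res_le _).trans inf_le_right)))
  obtain ⟨z, hz, e⟩ : ∃ z ∈ 𝐑(p, L), ρ z = -1 := by
    obtain ⟨x, hx, e⟩ := hN.ρ_surj (-1)
    obtain ⟨k, hk⟩ := exists_pow_mem_res hx p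
    exact ⟨_, hk, by rw [hN.ρ_pow hx, e, (((Fact.out : p.Prime).odd_of_ne_two hp).pow).neg_one_pow]⟩
  have hR := H69.res_le (p := p) L
  have hm : ∀ r ∈ 𝐑(p, L), ∀ t ∈ T, ⁅r, t⁆ ∈ V := fun r hr t ht => by
    rw [← commutatorElement_inv]
    exact inv_mem (h1 (commutator_mem_commutator ht hr))
  have coc : ∀ t ∈ T, ∀ r ∈ 𝐑(p, L), ∀ r' ∈ 𝐑(p, L), ψ ⁅r * r', t⁆ =
      (ρ r : Matrix (Fin 2) (Fin 2) F) *ᵥ ψ ⁅r', t⁆ + ψ ⁅r, t⁆ := fun t ht r hr r' hr' => by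
    rw [← hN.equiv r (hR hr) _ (hm r' hr' t ht), ← hN.ψ_mul _ (hN.conj_mem (hR hr) (hm r' hr' t ht))
      _ (hm r hr t ht)]
    congr 1
    simp only [commutatorElement_def]; group
  have neg : ∀ w : Fin 2 → F, (ρ z : Matrix (Fin 2) (Fin 2) F) *ᵥ w = -w := fun w => by
    rw [e]; simp [Matrix.neg_mulVec]
  have two : ∀ w : Fin 2 → F, w = -w → w = 0 := fun w hw => by
    rw [eq_neg_iff_add_eq_zero, ← two_smul F, smul_eq_zero] at hw
    exact hw.resolve_left h2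
  have ker : ∀ t ∈ T, ∀ k ∈ 𝐑(p, L), k ∈ T → ψ ⁅k, t⁆ = 0 := fun t ht k hk hkT => by
    have h3 := coc t ht z hz k hk
    have h4 := hm z hz k hkT
    have h5 : ⁅z * k, t⁆ = ⁅k * z, t⁆ := by
      have h6 := h.gz.Z_le_cQ h4
      have h7 := h.gz.Z_le_cQ (hm _ (mul_mem hk hz) t ht)
      calc ⁅z * k, t⁆ = ⁅z, k⁆ * ⁅k * z, t⁆ * (t * ⁅z, k⁆⁻¹ * t⁻¹) := by
            simp only [commutatorElement_def]; group
        _ = _ := by
            rw [(inv_mem h6) t ht, mul_inv_cancel_right,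
              EA.comm h.gz.ea h4 (hm _ (mul_mem hk hz) t ht), mul_inv_cancel_right]
    rw [h5, coc t ht k hk z hz, (hN.ρ_ker k (hR hk)).2 (by rw [cm_bot]; exact h.gz.Q_le_cZ hkT),
      neg] at h3
    exact two _ (by simpa [add_comm] using h3)
  have hW : L ≤ 𝐍(V ⊓ 𝐂(L)) :=
    le_normalizer_inf h.gz.normZ (le_normalizer_centralizer le_normalizer)
  refine ⟨T ⊓ cm (V ⊓ 𝐂(L)) 𝐑(p, L), le_normalizer_inf h.normQ
    (le_normalizer_cm hW (le_normalizer_res L)), fun t ht => ?_, fun v hv => ?_⟩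
  · obtain ⟨v, hv, hv'⟩ := hN.ψ_surj (-(2 : F)⁻¹ • ψ ⁅z, t⁆)
    have htv := mul_mem ht (inv_mem (h.gz.Z_le_Q hv))
    refine ⟨t * v⁻¹, ⟨htv, hW (h.gz.Q_leL htv), fun r hr => mem_inf.2 ⟨hm r hr _ htv, ?_⟩⟩, v, hv,
      by group⟩
    have h3 : ψ ⁅z, t * v⁻¹⁆ = 0 := by
      have h4 := hN.comm_mem (hR hz) (inv_mem hv)
      have h5 : ⁅z, t * v⁻¹⁆ = ⁅z, t⁆ * (t * ⁅z, v⁻¹⁆ * t⁻¹) := by
        simp only [commutatorElement_def]; group
      rw [h5, h.gz.Z_le_cQ h4 t ht, mul_inv_cancel_right, hN.ψ_mul _ (hm z hz t ht) _ h4,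
        hN.ψ_comm (hR hz) (inv_mem hv), neg, hN.ψ_inv hv, hv']
      ext i
      simp only [Pi.add_apply, Pi.sub_apply, Pi.neg_apply, Pi.smul_apply, smul_eq_mul, Pi.zero_apply]
      field_simp
      ring
    rw [← cm_bot, ← hN.ψ_ker _ (hm r hr _ htv)]
    have hk := mul_mem (mul_mem (mul_mem (inv_mem hz) (inv_mem hr)) hz) hr
    have h4 := coc _ htv _ (mul_mem hr hz) _ hk
    rw [ker _ htv _ hk (hc (mem_inf.2 ⟨hR hk, ?_⟩)), coc _ htv r hr z hz,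
      show r * z * (z⁻¹ * r⁻¹ * z * r) = z * r by group, coc _ htv z hz r hr, neg, h3] at h4
    · exact two _ (by simpa using h4.symm)
    rw [← cm_bot, ← hN.ρ_ker _ (hR hk), hN.ρ_mul _ (hR (mul_mem (mul_mem (inv_mem hz) (inv_mem hr))
      hz)) _ (hR hr), hN.ρ_mul _ (hR (mul_mem (inv_mem hz) (inv_mem hr))) _ (hR hz),
      hN.ρ_mul _ (hR (inv_mem hz)) _ (hR (inv_mem hr)), hN.ρ_inv (hR hz), hN.ρ_inv (hR hr), e]
    simp
  · have h3 := (hN.ψ_ker _ (hN.comm_mem (hR hz) hv.2)).2 (by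
      rw [cm_bot]; exact ((mem_cm.1 hv.1.2).2 z hz).2)
    rw [hN.ψ_comm (hR hz) hv.2, neg, sub_eq_zero] at h3
    rw [← cm_bot, ← hN.ψ_ker v hv.2]
    exact two _ h3.symm

/-- the case where `V ⊔ V'` is not normal in `L` -/
structure H3 (p q q' : ℕ) (L L' S M M' : Subgroup X) : Prop extends H2 p q q' L L' S M M' where
  nn : ¬ L ≤ 𝐍(zz p L ⊔ zz p L')

theorem H2.normY (H : H2 p q q' L L' S M M') : S ≤ 𝐍(V ⊔ V') :=
  le_normalizer_sup (H.h.le.trans H.h.gz.normZ) (H.h'.le.trans H.h'.gz.normZ)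

theorem H2.normD (H : H2 p q q' L L' S M M') : S ≤ 𝐍(T ⊓ T') :=
  le_normalizer_inf (H.h.le.trans H.h.normQ) (H.h'.le.trans H.h'.normQ)

theorem H2.normal_inf (H : H2 p q q' L L' S M M') (hn : L ≤ 𝐍(V ⊔ V')) : L ≤ 𝐍(T ⊓ T') := by
  rw [← H.h.centY H.h', le_antisymm (le_inf (H.h.cent_le le_sup_left) inf_le_right)
    (inf_le_inf_right _ H.h.Q_le)]
  exact le_normalizer_inf H.h.normQ (le_normalizer_centralizer hn)

theorem H2.commS (H : H2 p q q' L L' S M M') : ⁅S, S⁆ ≤ T ⊓ T' := le_inf H.h.comm H.h'.comm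

theorem H2.Y_cj (H : H2 p q q' L L' S M M') {g : X} (hg : g ∈ L) :
    (V ⊔ V') ^ᶜ g = V ⊔ V' ^ᶜ g := by rw [H69.cj_sup, H.h.cj_V hg]

theorem H2.Y_cj_le (H : H2 p q q' L L' S M M') {g : X} (hg : g ∈ L) : (V ⊔ V') ^ᶜ g ≤ T :=
  H69.cj_le_of_mem_normalizer H.YT (H.h.normQ hg)

theorem H2.D_cj_le (H : H2 p q q' L L' S M M') {g : X} (hg : g ∈ L) : (T ⊓ T') ^ᶜ g ≤ T :=
  H69.cj_le_of_mem_normalizer inf_le_left (H.h.normQ hg)

theorem H2.D_cj_c (H : H2 p q q' L L' S M M') (g : X) : (T ⊓ T') ^ᶜ g ≤ 𝐂((V ⊔ V') ^ᶜ g) := by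
  rw [← H69.cj_centralizer]; exact H69.cj_mono g H.DcY

theorem H2.V_le_cj (H : H2 p q q' L L' S M M') {g : X} (hg : g ∈ L) : V ≤ (V ⊔ V') ^ᶜ g :=
  le_sup_left.trans (H.Y_cj hg).ge

namespace H3

variable {g : X}

theorem not_le (H : H3 p q q' L L' S M M') (hg : g ∈ L) (hg' : g ∉ M) : ¬ V' ^ᶜ g ≤ T' :=
  fun h1 => hg' (H.h.max (L ⊓ 𝐍(V ⊔ V')) (le_inf H.h.le H.normY) inf_le_left
    (fun h2 => H.nn (h2.ge.trans inf_le_right)) ⟨hg, H69.mem_normalizer_of_cj_le (by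
      rw [H.Y_cj hg]
      exact sup_le le_sup_left ((H.symm.stepB hg h1).trans (sup_comm _ _).le))⟩)

theorem inf_cj (H : H3 p q q' L L' S M M') (hg : g ∈ L) (hg' : g ∉ M) :
    (V ⊔ V') ⊓ (T ⊓ T') ^ᶜ g = V := by
  have h1 : V ≤ (T ⊓ T') ^ᶜ g := (H.V_le_cj hg).trans (H69.cj_mono g H.YD)
  rw [dedekind_right ((H.h.gz.Z_le_T.trans H.h'.le).trans H.h'.gz.normZ) h1, sup_eq_left]
  exact ((inf_le_inf_left _ ((H.D_cj_c g).trans (H69.centralizer_anti (H69.cj_mono g le_sup_right)))).trans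
    (H.h'.inf_le_Z (((H69.cj_mono g le_sup_right).trans (H.Y_cj_le hg)).trans H.h.Q_le)
      (H.not_le hg hg'))).trans H.h.Z_le

theorem cj_inf (H : H3 p q q' L L' S M M') (hg : g ∈ L) (hg' : g ∉ M) :
    (V ⊔ V') ^ᶜ g ⊓ (T ⊓ T') = V := by
  rw [← H69.cj_inj (g := g⁻¹), H69.cj_inf, H69.cj_cj_inv, H.h.cj_V (inv_mem hg)]
  exact H.inf_cj (inv_mem hg) fun h => hg' (inv_mem_iff.1 h)

theorem supT (H : H3 p q q' L L' S M M') (hg : g ∈ L) (hg' : g ∉ M) :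
    T ⊓ T' ⊔ (V ⊔ V') ^ᶜ g = T := by
  have h1 := H.cdY.cent_inf (H.h.cd_cj H.cdD (le_sup_left.trans H.YD) inf_le_left hg)
  rw [H.inf_cj hg hg', H.h.centV, H.h.centY H.h', ← H.h.cj_cent (le_sup_left.trans H.YD) hg,
    H.h.centD H.h'] at h1
  exact h1.symm

theorem supT' (H : H3 p q q' L L' S M M') (hg : g ∈ L) (hg' : g ∉ M) :
    (T ⊓ T') ^ᶜ g ⊔ (V ⊔ V') = T := by
  rw [← H69.cj_inj (g := g⁻¹), H69.cj_sup, H69.cj_cj_inv, H.h.cj_T (inv_mem hg)]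
  exact H.supT (inv_mem hg) fun h => hg' (inv_mem_iff.1 h)

theorem commT (H : H3 p q q' L L' S M M') (hg : g ∈ L) : ⁅T, T⁆ ≤ T ⊓ T' ⊓ (T ⊓ T') ^ᶜ g := by
  have h1 : ⁅T, T⁆ ≤ T ⊓ T' := (commutator_mono H.h.Q_le H.h.Q_le).trans H.commS
  refine le_inf h1 ?_
  conv_lhs => rw [← H.h.cj_T hg, ← H69.cj_commutator]
  exact H69.cj_mono g h1

theorem normDg (H : H3 p q q' L L' S M M') (hg : g ∈ L) : T ≤ 𝐍((T ⊓ T') ^ᶜ g) :=
  le_normalizer_of_commutator_le_right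
    (((commutator_mono le_rfl (H.D_cj_le hg)).trans (H.commT hg)).trans inf_le_right)

theorem supD (H : H3 p q q' L L' S M M') (hg : g ∈ L) (hg' : g ∉ M) :
    T ⊓ T' ⊓ (T ⊓ T') ^ᶜ g ⊔ (V ⊔ V') = T ⊓ T' := by
  rw [sup_comm, inf_comm, ← dedekind_right (H.YT.trans (H.normDg hg)) H.YD, sup_comm,
    H.supT' hg hg', inf_eq_right.2 inf_le_left]

theorem supD' (H : H3 p q q' L L' S M M') (hg : g ∈ L) (hg' : g ∉ M) :
    T ⊓ T' ⊓ (T ⊓ T') ^ᶜ g ⊔ (V ⊔ V') ^ᶜ g = (T ⊓ T') ^ᶜ g := by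
  rw [sup_comm, ← dedekind_right (((H.Y_cj_le hg).trans H.h.Q_le).trans H.normD)
    (H69.cj_mono g H.YD), sup_comm, H.supT hg hg', inf_eq_right.2 (H.D_cj_le hg)]

theorem fr_eq (H : H3 p q q' L L' S M M') (hg : g ∈ L) (hg' : g ∉ M) :
    fr (T ⊓ T') = fr (T ⊓ T' ⊓ (T ⊓ T') ^ᶜ g) := by
  conv_lhs => rw [← H.supD hg hg']
  exact fr_sup_ea (by rw [H.supD hg hg']; exact H.h.isP.to_le (inf_le_left.trans H.h.Q_le)) H.eaY
    (le_centralizer_comm.1 (inf_le_left.trans H.DcY))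

theorem normN (H : H3 p q q' L L' S M M') : L ≤ 𝐍(fr (T ⊓ T')) := by
  obtain ⟨g, hg, hg'⟩ := H.h.exists_notMem
  have h1 : fr (T ⊓ T') ^ᶜ g = fr (T ⊓ T') := by
    rw [cj_fr, ← H.supD' hg hg', H.fr_eq hg hg']
    exact fr_sup_ea (by rw [H.supD' hg hg']; exact H.h.isP.to_le ((H.D_cj_le hg).trans H.h.Q_le))
      (EA.map H.eaY _) (le_centralizer_comm.1 (inf_le_right.trans (H.D_cj_c g)))
  exact (H.h.sup_eq (B := zpowers g) (zpowers_le.2 hg) fun h => hg' (zpowers_le.1 h)).ge.trans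
    (sup_le (H.normD.trans (normalizer_le_fr _)) (zpowers_le.2 (cj_eq_self_iff.1 h1)))

theorem nondeg (H : H3 p q q' L L' S M M') (hg : g ∈ L) (hg' : g ∉ M) {s y : X} (hs : s ∈ S)
    (hs' : s ∉ T) (hy : y ∈ (V ⊔ V') ^ᶜ g) (h1 : ⁅s, y⁆ ∈ (T ⊓ T') ^ᶜ g) : y ∈ V := by
  have hk := mul_mem (mul_mem (inv_mem hg) (H.h.le hs)) hg
  have h2 := H.cj_inf hk (H.h.notMem_conj hg hg' hs hs')
  have h3 : g⁻¹ * (s * y * s⁻¹) * g ∈ V := h2.le ⟨H69.mem_cj.2 (by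
      convert H69.mem_cj.1 hy using 1; group), H69.mem_cj.1 (by
      simpa [commutatorElement_def] using mul_mem h1 (H69.cj_mono g H.YD hy))⟩
  have h4 := H69.conj_mem_of_mem_normalizer' (H.h.gz.normZ (H.h.le hs))
    (H69.conj_mem_of_mem_normalizer (H.h.gz.normZ hg) h3)
  convert h4 using 1
  group

theorem comm_eq (H : H3 p q q' L L' S M M') (hg : g ∈ L) (hg' : g ∉ M) {c : X}
    (hc : c ∈ T ⊓ T') : ∃ w ∈ V', (w ∈ S ⊓ 𝐂(S) → c ∈ (T ⊓ T') ^ᶜ g) ∧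
      ∀ y ∈ (V ⊔ V') ^ᶜ g, ⁅y, c⁆ = ⁅y, w⁆ := by
  rw [← H.supD hg hg', sup_comm, sup_comm V, sup_assoc] at hc
  have h1 : V ⊔ T ⊓ T' ⊓ (T ⊓ T') ^ᶜ g ≤ (T ⊓ T') ^ᶜ g :=
    sup_le ((H.V_le_cj hg).trans (H69.cj_mono g H.YD)) inf_le_right
  obtain ⟨w, hw, u, hu, rfl⟩ := (mem_sup_of_le_normalizer_left (((h1.trans (H.D_cj_le hg)).trans
    (H.h.Q_le.trans H.h'.le)).trans H.h'.gz.normZ)).1 hc
  exact ⟨w, hw, fun h2 => mul_mem (h1 (mem_sup_left (H.h.Z_le h2))) (h1 hu), fun y hy =>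
    comm_mul_of_commute (H.D_cj_c g (h1 hu) y hy).symm⟩

theorem commDY (H : H3 p q q' L L' S M M') (hg : g ∈ L) (hg' : g ∉ M) :
    ⁅T ⊓ T', (V ⊔ V') ^ᶜ g⁆ ≤ ⁅V', S⁆ := by
  rw [Subgroup.commutator_comm, Subgroup.commutator_comm V']
  refine commutator_le.2 fun y hy c hc => ?_
  obtain ⟨w, hw, -, e⟩ := H.comm_eq hg hg' hc
  exact e y hy ▸ commutator_mem_commutator (H.h.Q_le (H.Y_cj_le hg hy)) hw

theorem commDY' (H : H3 p q q' L L' S M M') (hg : g ∈ L) (hg' : g ∉ M) :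
    ⁅T ⊓ T', (V ⊔ V') ^ᶜ g⁆ ≤ S ⊓ 𝐂(S) :=
  (H.commDY hg hg').trans ((Subgroup.commutator_comm _ _).le.trans H.h'.quad)

theorem notMem (H : H3 p q q' L L' S M M') (hg : g ∈ L) (hg' : g ∉ M) {y : X}
    (hy : y ∈ (V ⊔ V') ^ᶜ g) (hy' : y ∉ V) : y ∉ T' := fun h1 =>
  hy' ((H.cj_inf hg hg').le ⟨hy, H.Y_cj_le hg hy, h1⟩)

theorem cubic (H : H3 p q q' L L' S M M') (hg : g ∈ L) (hg' : g ∉ M) {s y : X} (hs : s ∈ S)
    (hs' : s ∉ T) (hy : y ∈ (V ⊔ V') ^ᶜ g) (hy' : y ∉ V) : ⁅y, ⁅y, s⁆⁆ ∉ 𝐂(L') := fun h1 => by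
  have hyS := H.h.Q_le (H.Y_cj_le hg hy)
  obtain ⟨w, hw, h2, e⟩ := H.comm_eq hg hg' (H.commS (commutator_mem_commutator hyS hs))
  rw [e y hy] at h1
  refine hy' (H.nondeg hg hg' hs hs' hy ?_)
  rw [← commutatorElement_inv]
  exact inv_mem (h2 (H.h'.reg hyS (H.notMem hg hg' hy hy') hw h1))

theorem exists_sy (H : H3 p q q' L L' S M M') (hg : g ∈ L) (hg' : g ∉ M) :
    ∃ s ∈ T', s ∉ T ∧ ∃ y ∈ (V ⊔ V') ^ᶜ g, y ∉ V := by
  obtain ⟨s, hs, hs'⟩ := SetLike.not_le_iff_exists.1 (H.h.not_le_of_ne H.h' H.ne)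
  obtain ⟨y, hy, hy'⟩ := SetLike.not_le_iff_exists.1 (H.not_le hg hg')
  exact ⟨s, hs, hs', y, H69.cj_mono g le_sup_right hy, fun h => hy' (H.symm.le h)⟩

theorem central (H : H3 p q q' L L' S M M') (hn : L' ≤ 𝐍(fr (T ⊓ T'))) :
    fr (T ⊓ T') ⊓ V' ≤ 𝐂(L') := by
  obtain ⟨g, hg, hg'⟩ := H.h.exists_notMem
  obtain ⟨-, -, -, y, hy, hy'⟩ := H.exists_sy hg hg'
  refine H.h'.central hn (H.h.Q_le (H.Y_cj_le hg hy)) (H.notMem hg hg' hy hy') fun x hx => ?_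
  rw [H.fr_eq hg hg'] at hx
  exact mem_centralizer_singleton_iff.2 (H.D_cj_c g (fr_le _ hx).2 y hy).symm

theorem ne_two (H : H3 p q q' L L' S M M') (hn : L' ≤ 𝐍(fr (T ⊓ T'))) : p ≠ 2 := by
  rintro rfl
  obtain ⟨g, hg, hg'⟩ := H.h.exists_notMem
  obtain ⟨s, hs, hs', y, hy, hy'⟩ := H.exists_sy hg hg'
  have hc := H.commS (commutator_mem_commutator (H.h.Q_le (H.Y_cj_le hg hy)) (H.h'.Q_le hs))
  refine H.cubic hg hg' (H.h'.Q_le hs) hs' hy hy' (H.central hn (mem_inf.2 ⟨?_, ?_⟩))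
  · have h1 : y * y = 1 := (sq y).symm.trans (EA.pow_eq_one (EA.map H.eaY _) hy)
    have h2 : ⁅y, ⁅y, s⁆⁆ = (⁅y, s⁆ ^ 2)⁻¹ := by
      have h3 : y⁻¹ = y := inv_eq_of_mul_eq_one_right h1
      simp only [commutatorElement_def, sq, _root_.mul_inv_rev, inv_inv, h3, ← mul_assoc, h1,
        one_mul]
    rw [h2]
    exact inv_mem (H5.pow_mem_map_frattini (H.h.isP.to_le (inf_le_left.trans H.h.Q_le)) hc)
  · rw [← commutatorElement_inv]
    exact inv_mem (H.h'.Z_le (H.commDY' hg hg' (commutator_mem_commutator hc hy)))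

theorem not_normal (H : H3 p q q' L L' S M M') (hp : p ≠ 2) : ¬ L' ≤ 𝐍(V ⊔ V') := fun hn => by
  obtain ⟨g, hg, hg'⟩ := H.h.exists_notMem
  obtain ⟨s, hs, hs', y, hy, hy'⟩ := H.exists_sy hg hg'
  have hyS := H.h.Q_le (H.Y_cj_le hg hy)
  have hD : L' ≤ 𝐍(T ⊓ T') := inf_comm T' T ▸ H.symm.normal_inf (sup_comm V V' ▸ hn)
  have h1 : L' ≤ cm (T ⊓ T') T' := H.h'.le_of_normal (le_normalizer_cm hD H.h'.normQ)
    (le_cm_iff.2 ⟨H.normD, (commutator_mono H.h'.Q_le le_rfl).trans H.commS⟩)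
  have h2 : 𝐑(p, L') ≤ cm V' (T ⊓ T') := H.h'.res_le_of_not_le_Q
    (le_normalizer_cm H.h'.gz.normZ hD) ((H.Y_cj_le hg).trans H.h.Q_le)
    (le_cm_iff.2 ⟨(((H.Y_cj_le hg).trans H.h.Q_le).trans H.h'.le).trans H.h'.gz.normZ,
      (H.commDY' hg hg').trans H.h'.Z_le⟩) fun h2 => H.notMem hg hg' hy hy' (h2 hy)
  obtain ⟨C, hC, h3, h4⟩ := H.h'.exists_compl hp (by
    rw [← commutator_res_res (H.h'.isP.to_le H.h'.Q_le) H.h'.normQ]
    exact (commutator_mono ((commutator_mono le_rfl (H69.res_le _)).trans (le_cm_iff.1 h1).2)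
      le_rfl).trans (le_cm_iff.1 h2).2)
  obtain ⟨c, hc, v, hv, rfl⟩ := h3 s hs
  have hcT : c ∈ T' := by simpa using mul_mem hs (inv_mem (H.h'.gz.Z_le_Q hv))
  have h5 : ∀ c ∈ C, ⁅y, c⁆ ∈ C := fun c hc =>
    mul_mem (H69.conj_mem_of_mem_normalizer (hC (H.h'.le hyS)) hc) (inv_mem hc)
  refine H.cubic hg hg' (H.h'.Q_le hcT) (fun h6 => hs' (mul_mem h6 (H.le hv))) hy hy'
    (h4 (mem_inf.2 ⟨h5 _ (h5 c hc), ?_⟩))
  rw [← commutatorElement_inv]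
  exact inv_mem (H.h'.Z_le (H.commDY' hg hg' (commutator_mem_commutator
    (H.commS (commutator_mem_commutator hyS (H.h'.Q_le hcT))) hy)))

theorem card_T (H : H3 p q q' L L' S M M') :
    Nat.card T = q' * Nat.card (T ⊓ T' : Subgroup X) := by
  have h1 := card_sup_mul_card_inf ((H.h.Q_le.trans H.h'.le).trans H.h'.normQ)
  rw [← H.h.sup_T H.h' H.ne, H.h'.card] at h1
  exact Nat.eq_of_mul_eq_mul_right (Nat.card_pos (α := T')) (by rw [← h1]; ring)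

theorem supA (H : H3 p q q' L L' S M M') (hg : g ∈ L) (hg' : g ∉ M) : S = V' ^ᶜ g ⊔ T' := by
  have h1 := H.supT hg hg'
  rw [H.Y_cj hg] at h1
  refine le_antisymm ((H.h.sup_T H.h' H.ne).le.trans (sup_le (h1.ge.trans (sup_le
    (inf_le_right.trans le_sup_right) (sup_le (H.symm.le.trans le_sup_right) le_sup_left)))
      le_sup_right)) (sup_le ((le_sup_right.trans (le_sup_right.trans h1.le)).trans H.h.Q_le)
        H.h'.Q_le)

theorem three (H : H3 p q q' L L' S M M') (H' : H3 p q' q L' L S M' M) (hq : q' ≤ q) : p = 3 := by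
  have h := H.h
  obtain ⟨g, hg, hg'⟩ := h.exists_notMem
  obtain ⟨k, hk, hk'⟩ := H.h'.exists_notMem
  have hA := H'.supA hk hk'
  have hAY : V ^ᶜ k ≤ (V' ⊔ V) ^ᶜ k := H69.cj_mono k le_sup_right
  have hE : ⁅T ⊓ T', V ^ᶜ k⁆ ≤ ⁅V, S⁆ :=
    (commutator_mono (inf_comm _ _).le hAY).trans (H'.commDY hk hk')
  have hVD : ∀ g ∈ L, V ≤ T ⊓ T' ⊓ (T ⊓ T') ^ᶜ g := fun g hg =>
    le_inf (le_sup_left.trans H.YD) ((H.V_le_cj hg).trans (H69.cj_mono g H.YD))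
  have hVS : ⁅V, S⁆ ≤ V := H69.commutator_le_left_of_le_normalizer (h.le.trans h.gz.normZ)
  have hDS : ∀ g ∈ L, ⁅T ⊓ T', S⁆ ≤ T ⊓ T' ⊓ (T ⊓ T') ^ᶜ g := fun g hg => by
    have h1 : ⁅T ⊓ T', V ^ᶜ k⁆ ≤ T ⊓ T' ⊓ (T ⊓ T') ^ᶜ g := (hE.trans hVS).trans (hVD g hg)
    have h2 : ⁅T ⊓ T', T⁆ ≤ T ⊓ T' ⊓ (T ⊓ T') ^ᶜ g :=
      (commutator_mono inf_le_left le_rfl).trans (H.commT hg)
    exact (commutator_mono le_rfl hA.le).trans (commutator_sup_le_right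
      (le_normalizer_of_commutator_le_left ((commutator_mono inf_le_left le_rfl).trans h1))
      (le_normalizer_of_commutator_le_left ((commutator_mono inf_le_left le_rfl).trans h2)) h1 h2)
  have hD : L ≤ 𝐍(T ⊓ T' ⊓ (T ⊓ T') ^ᶜ g) := by
    refine (h.sup_cj hg hg').ge.trans (sup_le (le_normalizer_of_commutator_le_left
      ((commutator_mono inf_le_left le_rfl).trans (hDS g hg)))
      (le_normalizer_of_commutator_le_left ((commutator_mono inf_le_right le_rfl).trans ?_)))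
    rw [← H69.cj_commutator]
    refine (H69.cj_mono g (hDS _ (inv_mem hg))).trans (le_of_eq ?_)
    rw [H69.cj_inf _ ((T ⊓ T') ^ᶜ g⁻¹), H69.cj_inv_cj, inf_comm]
  have hfix : T ⊓ cm (T ⊓ T' ⊓ (T ⊓ T') ^ᶜ g) S = T ⊓ T' := by
    have h1 : T ⊓ T' ≤ cm (T ⊓ T' ⊓ (T ⊓ T') ^ᶜ g) S :=
      le_cm_iff'.2 ⟨(inf_le_left.trans h.gz.Q_leL).trans hD, hDS g hg⟩
    refine le_antisymm (fun t ht => ?_) (le_inf inf_le_left h1)
    obtain ⟨d, hd, y, hy, rfl⟩ := (mem_sup_of_le_normalizer_left (((H.Y_cj_le hg).trans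
      h.Q_le).trans H.normD)).1 ((H.supT hg hg').ge ht.1)
    obtain ⟨s, hs, hs'⟩ := SetLike.not_le_iff_exists.1 h.not_le_Q
    have h2 := mul_mem (inv_mem (h1 hd)) (mem_inf.1 ht).2
    rw [inv_mul_cancel_left] at h2
    exact mul_mem hd (H.YD (mem_sup_left (H.nondeg hg hg' hs hs' hy ((mem_cm.1 h2).2 s hs).2)))
  have hnat := (h.nat (D := T ⊓ T' ⊓ (T ⊓ T') ^ᶜ g) (A := S)
    ⟨h.normQ, hD, inf_le_left.trans inf_le_left, H.commT hg⟩
    (by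
      obtain ⟨n, hn⟩ := h.isP.exists_card_eq
      refine ⟨n, fun v hv => ?_⟩
      rw [← hn, show v ^ Nat.card S = 1 from congrArg Subtype.val
        (pow_card_eq_one' (G := S) (x := ⟨v, h.Q_le hv⟩))]
      exact one_mem _)
    (le_cm_iff.2 ⟨h.gz.Q_leL.trans hD, H.commT hg⟩)
    (fun h1 => H.h'.not_le_of_ne h H.ne.symm (by
      have h2 : L ≤ 𝐍(T ⊓ T') := h.le_of_res_le H.normD (le_normalizer_of_commutator_le_left
        (((commutator_mono inf_le_left le_rfl).trans (le_cm_iff.1 h1).2).trans inf_le_left))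
      exact ((H.supT hg hg').ge.trans (sup_le le_rfl
        (H69.cj_le_of_mem_normalizer H.YD (h2 hg)))).trans inf_le_right))
    le_rfl h.not_le_Q
    ((commutator_mono ((commutator_mono h.Q_le le_rfl).trans H.commS) le_rfl).trans (hDS g hg))
    (by
      rw [hfix, inf_eq_right.2 h.Q_le, h.card]
      conv_lhs => rw [mul_comm]; lhs; rw [H.card_T]
      calc _ = q' * (Nat.card T * Nat.card (T ⊓ T' : Subgroup X)) := by ring
        _ ≤ q * (Nat.card T * Nat.card (T ⊓ T' : Subgroup X)) := Nat.mul_le_mul_right _ hq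
        _ = _ := by ring)).2
  refine B2.three (A := V ^ᶜ k) (Y := V' ^ᶜ g) (E := T ⊓ T')
    ⟨h.gz, EA.map h.gz.ea _, EA.map H.h'.gz.ea _, hA, ?_, hVD g hg, hE, ?_, ?_, hfix, ?_, h.nat',
      fun F _ _ => hnat F⟩
  · conv_lhs => rw [← H.supT hg hg', H.Y_cj hg, ← sup_assoc,
      sup_eq_left.2 (le_sup_left.trans H.YD), sup_comm]
  · rw [ncl_cj_of_mem _ hg]
    refine ncl_comm_le ?_ (le_normalizer_inf h.gz.normZ
      (le_normalizer_centralizer le_normalizer)) h.normQ ((H.le.trans h.gz.Q_leL).trans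
        (le_normalizer_inf h.gz.normZ (le_normalizer_centralizer le_normalizer)))
    rw [Subgroup.commutator_comm]
    exact (commutator_mono h.Q_le le_rfl).trans (le_inf (H.h'.quad.trans h.Z_le) H.stepA)
  · have h1 : T ⊓ cm (T ⊓ T' ⊓ (T ⊓ T') ^ᶜ g) L ≤ T ⊓ T' :=
      (inf_le_inf_left _ (cm_anti h.le)).trans hfix.le
    refine le_antisymm (le_inf h1 ?_) (le_inf (inf_le_left.trans inf_le_left) (le_cm_iff.2
      ⟨le_normalizer, H69.commutator_le_right_of_le_normalizer hD⟩))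
    rw [← cj_eq_of_mem_normalizer (le_normalizer_inf h.normQ
      (le_normalizer_cm hD le_normalizer) hg)]
    exact H69.cj_mono g h1
  · intro x hx hx' a ha ha'
    have h1 := H.Y_cj_le hg (H69.cj_mono g le_sup_right hx)
    exact H'.cubic hk hk' (h.Q_le h1) (fun h2 => hx' ⟨h1, h2⟩) (hAY ha) fun h2 => ha' (H.le h2)

theorem s0_le (H : H3 3 q q' L L' S M M') (H' : H3 3 q' q L' L S M' M) :
    s0 3 S ≤ fr (pCoreOf 3 L ⊓ pCoreOf 3 L') := by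
  obtain ⟨g, hg, hg'⟩ := H.h.exists_notMem
  obtain ⟨k, hk, hk'⟩ := H.h'.exists_notMem
  have hD := (inf_le_left (b := pCoreOf 3 L')).trans H.h.Q_le
  have hp := H.h.isP.to_le hD
  have h1 : fr S ≤ pCoreOf 3 L ⊓ pCoreOf 3 L' := (H5.map_frattini_le_iff H.h.isP).2
    ⟨H.commS, fun x hx => ⟨H.h.pow x hx, H.h'.pow x hx⟩⟩
  have hn := H.normD.trans (normalizer_le_fr _)
  have hn' : S ≤ 𝐍(fr (pCoreOf 3 L ⊓ pCoreOf 3 L') ⊔ S ⊓ 𝐂(S)) := le_normalizer_sup hn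
    (le_normalizer_inf le_normalizer (le_normalizer_centralizer le_normalizer))
  have h2 : ⁅pCoreOf 3 L ⊓ pCoreOf 3 L', S⁆ ≤ fr (pCoreOf 3 L ⊓ pCoreOf 3 L') ⊔ S ⊓ 𝐂(S) := by
    refine (commutator_mono le_rfl (H'.supA hk hk').le).trans (commutator_sup_le_right
      ((le_sup_left.trans (H'.supA hk hk').ge).trans hn') (H.h.Q_le.trans hn')
      (((commutator_mono (inf_comm _ _).le (H69.cj_mono k le_sup_right)).trans
        (H'.commDY' hk hk')).trans le_sup_right) ?_)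
    exact (commutator_mono le_rfl (H.supT hg hg').ge).trans (commutator_sup_le_right
      (hD.trans hn') (((H.Y_cj_le hg).trans H.h.Q_le).trans hn')
      ((H5.commutator_le_map_frattini hp).trans le_sup_left)
      ((H.commDY' hg hg').trans le_sup_right))
  rw [s0, if_neg (by decide), if_pos rfl]
  exact sup_le ((commutator_mono ((commutator_mono h1 le_rfl).trans h2) le_rfl).trans
    (comm_sup_cent hn ((fr_le _).trans hD) le_rfl)) (H5.map_frattini_mono hp h1)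

end H3

/-- the main theorem on two groups -/
theorem HG.normal_inf (h : HG p q L S M) (h' : HG p q' L' S M')
    (h1 : ¬ S ⊓ 𝐂(S) ⊓ s0 p S ≤ 𝐂(L)) : V' ≤ T ∧ L ≤ 𝐍(T ⊓ T') := by
  have h2 : V' ≤ T := by_contra fun h2 => h1 (h.b1 h' h2)
  refine ⟨h2, ?_⟩
  by_cases hne : T = T'
  · rw [← hne, inf_idem]; exact h.normQ
  have H : H2 p q q' L L' S M M' := ⟨h, h', hne, h2⟩
  refine H.normal_inf (by_contra fun hn => ?_)
  have H1 : H3 p q q' L L' S M M' := ⟨H, hn⟩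
  by_cases hn' : L' ≤ 𝐍(V' ⊔ V)
  · refine H1.not_normal (H1.ne_two ?_) (sup_comm V V' ▸ hn')
    rw [inf_comm]
    exact (H.symm.normal_inf hn').trans (normalizer_le_fr _)
  have H2 : H3 p q' q L' L S M' M := ⟨H.symm, hn'⟩
  obtain rfl : p = 3 := (le_total q' q).elim (H1.three H2) (H2.three H1)
  refine h1 (le_trans (fun x hx => mem_inf.2 ⟨H2.s0_le H1 hx.2, h.Z_le hx.1⟩) (H2.central ?_))
  rw [inf_comm]
  exact H1.normN

end H68.Push
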