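import Mathlib
import Cfsg.Agent.Base
import Cfsg.Agent.Lib.Push.GN3

/-! The theorem of Glauberman and Niles on a pair of characteristic subgroups. -/

set_option autoImplicit false
set_option linter.unusedSectionVars false
set_option linter.style.haveILetI false

namespace H68.Push

open Subgroup H69 H24 Matrix Cfsg
open scoped MatrixGroups commutatorElement

universe u

theorem exists_perm_hom {S G : Type u} [Group S] [Group G] [Finite G] {τ : S →* G}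
    (hτ : Function.Injective τ) : ∃ (R : Type u) (_ : Finite R) (_ : Nonempty R),
      ∀ (R' : Type u) [Nonempty R'], ∃ f : G →* Equiv.Perm (S × R × R'), Function.Injective f ∧
        ∀ s x, f (τ s) x = (s * x.1, x.2) := by
  obtain ⟨R, hR, h1⟩ := exists_isComplement_right τ.range 1
  refine ⟨R, inferInstance, ⟨⟨1, h1⟩⟩, fun R' _ => ?_⟩
  let e : S × R ≃ G := ((MonoidHom.ofInjective hτ).toEquiv.prodCongr (Equiv.refl R)).trans
    hR.equiv.symm
  have he : ∀ s r, e (s, r) = τ s * r := fun _ _ => rfl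
  let φ : G × R' ≃ S × R × R' := (e.symm.prodCongr (Equiv.refl R')).trans (Equiv.prodAssoc _ _ _)
  let f₀ : G →* Equiv.Perm (G × R') := MonoidHom.mk'
    (fun g => (Equiv.mulLeft g).prodCongr (Equiv.refl R')) fun a b => by
      ext x <;> simp [mul_assoc]
  refine ⟨φ.permCongrHom.toMonoidHom.comp f₀, φ.permCongrHom.injective.comp fun a b h => ?_,
    fun s ⟨a, r, r'⟩ => ?_⟩
  · simpa [f₀] using congrArg (fun π : Equiv.Perm (G × R') => (π (1, Classical.arbitrary R')).1) h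
  · have : e.symm (τ s * e (a, r)) = (s * a, r) := by
      rw [Equiv.symm_apply_eq, he, he, map_mul, mul_assoc]
    simp [φ, f₀, this]

theorem exists_common {S G G' : Type u} [Group S] [Group G] [Finite G] [Group G'] [Finite G']
    {τ : S →* G} {τ' : S →* G'} (hτ : Function.Injective τ) (hτ' : Function.Injective τ') :
    ∃ (X : Type u) (_ : Group X) (_ : Finite X) (f : G →* X) (f' : G' →* X),
      Function.Injective f ∧ Function.Injective f' ∧ f.comp τ = f'.comp τ' := by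
  haveI := Finite.of_injective τ hτ
  obtain ⟨R, _, _, h⟩ := exists_perm_hom hτ
  obtain ⟨R', _, _, h'⟩ := exists_perm_hom hτ'
  obtain ⟨f, hf, h⟩ := h R'
  obtain ⟨f', hf', h'⟩ := h' R
  let φ : S × R' × R ≃ S × R × R' := (Equiv.refl S).prodCongr (Equiv.prodComm _ _)
  refine ⟨_, inferInstance, inferInstance, f, φ.permCongrHom.toMonoidHom.comp f', hf,
    φ.permCongrHom.injective.comp hf', ?_⟩
  ext s x : 2
  simp [φ, h, h']

section map

variable {G X : Type*} [Group G] [Group X] {f : G →* X}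

theorem cdin_map_iff (hf : Function.Injective f) {S R : Subgroup G} :
    CDin (S.map f) (R.map f) ↔ CDin S R := by
  refine ⟨fun h => ⟨(map_le_map_iff_of_injective hf).1 h.1, fun R' hR' => ?_⟩,
    fun h => ⟨map_mono h.1, fun R' hR' => ?_⟩⟩
  · simpa only [← map_inf_centralizer hf, card_map_of_inj hf] using h.2 _ (map_mono hR')
  · obtain ⟨R₀, h1, rfl⟩ := exists_map_eq hR' hf
    simpa only [← map_inf_centralizer hf, card_map_of_inj hf] using h.2 _ h1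

theorem map_mclJ (hf : Function.Injective f) (S : Subgroup G) :
    (sSup {R | MCLin S R}).map f = sSup {R | MCLin (S.map f) R} := by
  rw [map_sSup_eq]
  congr 1
  ext R
  refine ⟨?_, fun h => ?_⟩
  · rintro ⟨Q, hQ, rfl⟩
    exact (mclin_map_iff hf).2 hQ
  · obtain ⟨Q, -, rfl⟩ := exists_map_eq h.1.1 hf
    exact ⟨Q, (mclin_map_iff hf).1 h, rfl⟩

variable [Finite G] [Finite X] {p q : ℕ}

theorem mclmax_map_iff (hf : Function.Injective f) {S R : Subgroup G} :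
    MCLmax p (S.map f) (R.map f) ↔ MCLmax p S R := by
  refine ⟨fun h => ⟨(mclin_map_iff hf).1 h.1, fun R' hR' => ?_⟩,
    fun h => ⟨(mclin_map_iff hf).2 h.1, fun R' hR' => ?_⟩⟩
  · simpa only [card_omega_map hf] using h.2 _ ((mclin_map_iff hf).2 hR')
  · obtain ⟨R₀, -, rfl⟩ := exists_map_eq hR'.1.1 hf
    simpa only [card_omega_map hf] using h.2 _ ((mclin_map_iff hf).1 hR')

theorem map_phiJ (hf : Function.Injective f) (S : Subgroup G) :
    (phiJoin p S).map f = phiJoin p (S.map f) := by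
  refine le_antisymm (map_le_iff_le_comap.2 (phiJoin_le_iff.2 fun R hR => ?_))
    (phiJoin_le_iff.2 fun R hR => ?_)
  · rw [← map_le_iff_le_comap, map_frattini_map hf]
    exact le_phiJoin ((mclmax_map_iff hf).2 hR)
  · obtain ⟨Q, -, rfl⟩ := exists_map_eq hR.1.1.1 hf
    rw [← map_frattini_map hf]
    exact map_mono (le_phiJoin ((mclmax_map_iff hf).1 hR))

theorem hg_of_map [Fact p.Prime] (hf : Function.Injective f) {S : Subgroup G} {L M : Subgroup X}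
    (hJ : S ≤ thompsonSubgroupAOf S) (hcl : ∀ A ∈ maxAb S, CLin S A)
    (hZ : IsElementaryAbelian p (S ⊓ 𝐂(S) : Subgroup G)) (h : PU p q L (S.map f) M)
    (hn : ¬ L ≤ 𝐍((S ⊓ 𝐂(S) ⊓ s0 p S).map f)) :
    HG p q L (S.map f) M ∧ ¬ S.map f ⊓ 𝐂(S.map f) ⊓ s0 p (S.map f) ≤ 𝐂(L) := by
  rw [map_inf _ _ _ hf, map_inf_centralizer hf, map_s0 hf] at hn
  have h1 : ¬ S.map f ⊓ 𝐂(S.map f) ⊓ s0 p (S.map f) ≤ 𝐂(L) := fun h1 =>
    hn (le_normalizer_of_le_centralizer (le_centralizer_comm.1 h1))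
  refine ⟨⟨h, ?_, fun A hA => ?_, ?_, fun h2 => h1 (inf_le_left.trans
    (le_centralizer_comm.1 (h.le_centralizer_of_normal inf_le_right h2)))⟩, h1⟩
  · rw [← map_thompsonSubgroupAOf hf]; exact map_mono hJ
  · obtain ⟨A, -, rfl⟩ := exists_map_eq hA.1 hf
    exact (clin_map_iff hf).2 (hcl A ((map_mem_maxAb_iff hf).1 hA))
  · rw [← map_inf_centralizer hf]; exact EA.map hZ f

theorem max_eq_of_clin {A B R : Subgroup G} (h : CLin B R) (h1 : R ≤ A) (h2 : A ≤ B) :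
    maxCentralProduct A = maxCentralProduct B := by
  have key : ∀ B : Subgroup G, CLin B R → maxCentralProduct B = H70.CD.zeta R := fun B h => by
    obtain ⟨Q, hQ, rfl⟩ := h.exists_sub
    rw [zeta_map B.subtype_injective, H70.CD.cl_iff_zeta.1 hQ]
  rw [key B h, key A ((h.restrict_iff h1 h2).2 ⟨h, h1⟩)]

theorem char_of_map {C : Subgroup G} (h : ∀ φ : G →* G, Function.Injective φ →
    (⊤ : Subgroup G).map φ = ⊤ → C.map φ = C) : C.Characteristic :=
  characteristic_iff_map_eq.2 fun φ => h _ φ.injective (map_top_of_surjective _ φ.surjective)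

theorem fr_top [Fact p.Prime] (hG : IsPGroup p G) : fr (⊤ : Subgroup G) = frattini G :=
  H5.map_frattini_of_surjective (isPGroup_top_iff.2 hG) fun x => ⟨⟨x, trivial⟩, rfl⟩

namespace PU

variable [Fact p.Prime] {L S M : Subgroup G}

theorem jt_aux (h : PU p q L S M) {Y : Subgroup G} (hY : Y ≤ S ⊓ 𝐂(S))
    (h1 : ¬ L ≤ 𝐍(omegaOne 0 (S ⊓ 𝐂(S))) → ∀ A ∈ maxEA 0 S, ¬ A ≤ pCoreOf p L → L ≤ 𝐂(Y)) :
    L ≤ 𝐍(Y) ∨ L ≤ 𝐍(S ⊓ 𝐂(centerThompsonAOf S)) := by
  by_cases h2 : L ≤ 𝐍(omegaOne 0 (S ⊓ 𝐂(S)))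
  · rw [omegaOne_zero] at h2
    exact Or.inl (le_normalizer_of_le_centralizer
      ((h.le_centralizer_of_normal inf_le_right h2).trans (H69.centralizer_anti hY)))
  by_cases hJ : thompsonSubgroupOf 0 S ≤ pCoreOf p L
  · have := h.baumann_normal_of_le h2 hJ
    rw [omegaOne_zero, centerThompsonOf_zero] at this
    exact Or.inr this
  obtain ⟨A, hA, hAQ⟩ := PU.exists_off hJ
  exact Or.inl (le_normalizer_of_le_centralizer (h1 h2 A hA hAQ))

theorem jt_comm (h : PU p q L S M) : L ≤ 𝐍(⁅centerThompsonAOf S, S⁆ ⊓ (S ⊓ 𝐂(S))) ∨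
    L ≤ 𝐍(S ⊓ 𝐂(centerThompsonAOf S)) := by
  refine h.jt_aux inf_le_right fun hY A hA hAQ => ?_
  obtain ⟨-, -, -, h1, -, -, -, h2⟩ := h.baumann_struct hA hAQ (le_normalizer_ncl _ L)
    (h.ncl_le_Q (PU.omega_le _)) (h.ncl_ea (PU.omega_le _) (omegaOne_center_isElementaryAbelian _))
    (h.not_res_le_centralizer (PU.omega_le _) (le_ncl _ L) hY) rfl rfl
  rw [omegaOne_zero, centerThompsonOf_zero] at h1 h2
  exact h1.le.trans (sup_le (le_centralizer_comm.1 (inf_le_left.trans h2))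
    (h.Q_le.trans (le_centralizer_comm.1 (inf_le_right.trans inf_le_right))))

theorem jt_pow (h : PU p q L S M) : L ≤ 𝐍(powerClosure p 1 (S ⊓ 𝐂(S))) ∨
    L ≤ 𝐍(S ⊓ 𝐂(centerThompsonAOf S)) := by
  refine h.jt_aux (H81.powerClosure_le _) fun hY A hA hAQ => ?_
  obtain ⟨F, _, _, hF, _⟩ := h.exists_field
  obtain ⟨ρ, ψ, hN⟩ := (h.off hA hAQ (le_normalizer_ncl _ L)
    (h.ncl_le_Q (PU.omega_le _)) (h.ncl_ea (PU.omega_le _) (omegaOne_center_isElementaryAbelian _))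
    (h.not_res_le_centralizer (PU.omega_le _) (le_ncl _ L) hY)).2.1 F hF
  refine le_centralizer_comm.1 (H81.powerClosure_le_iff.2 fun x hx => ?_)
  rw [pow_one, ← cm_bot]
  exact hN.pow_mem' p (le_ncl _ L (by rwa [omegaOne_zero]))

end PU

end map

variable {p : ℕ} [Fact p.Prime] {S : Type u} [Group S] [Finite S]

/-- `C_S(Z(J(S)))` -/
abbrev jt (S : Type u) [Group S] : Subgroup S :=
  centralizer ((thompsonSubgroupA S ⊓ centralizer (thompsonSubgroupA S : Set S) : Subgroup S) :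
    Set S)

theorem zj_top : centerThompsonAOf (⊤ : Subgroup S) =
    thompsonSubgroupA S ⊓ centralizer (thompsonSubgroupA S : Set S) := by
  rw [centerThompsonAOf_def, thompsonSubgroupAOf_top]

theorem map_jt {G : Type*} [Group G] {τ : S →* G} (hτ : Function.Injective τ) :
    (jt S).map τ = (⊤ : Subgroup S).map τ ⊓ 𝐂(centerThompsonAOf ((⊤ : Subgroup S).map τ)) := by
  rw [← map_centerThompsonAOf hτ, ← map_inf_centralizer hτ, top_inf_eq, zj_top]

/-- one of `S₁`, `S₂` is normal in every pushing-up group over `S` -/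
def OneNormal (p : ℕ) (S₁ S₂ : Subgroup S) : Prop :=
  ∀ (G : Type u) [Group G] [Finite G] (τ : S →* G) (q : ℕ) (M : Subgroup G),
    Function.Injective τ → PU p q ⊤ ((⊤ : Subgroup S).map τ) M →
      ⊤ ≤ 𝐍(S₁.map τ) ∨ ⊤ ≤ 𝐍(S₂.map τ)

/-- a pair of characteristic subgroups for pushing-up -/
def Pair (p : ℕ) (S₁ S₂ : Subgroup S) : Prop :=
  S₁ ≠ ⊥ ∧ S₂ ≠ ⊥ ∧ S₁.Characteristic ∧ S₂.Characteristic ∧ S₁ ≤ center S ∧ S₂ ≤ jt S ∧
    (S₂.subgroupOf (jt S)).Characteristic ∧ OneNormal p S₁ S₂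

theorem pair_jt {S₁ : Subgroup S} (h1 : S₁ ≠ ⊥) (h2 : S₁.Characteristic) (h3 : S₁ ≤ ⊤ ⊓ 𝐂((⊤ : Subgroup S)))
    (h : OneNormal p S₁ (jt S)) : Pair p S₁ (jt S) := by
  rw [H69.centralizer_top, top_inf_eq] at h3
  refine ⟨h1, fun h4 => h1 (le_bot_iff.1 (h3.trans ((center_le_centralizer _).trans h4.le))), h2,
    char_of_map fun φ hφ e => ?_, h3, le_rfl, ?_, h⟩
  · rw [map_jt hφ, e, zj_top, top_inf_eq]
  · rw [subgroupOf_self]; infer_instance

theorem pair_top (hJ : jt S = ⊤) {S₁ S₂ : Subgroup S} (h1 : S₁ ≠ ⊥) (h1' : S₂ ≠ ⊥)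
    (h2 : S₁.Characteristic) (h2' : S₂.Characteristic) (h3 : S₁ ≤ ⊤ ⊓ 𝐂((⊤ : Subgroup S)))
    (h : OneNormal p S₁ S₂) : Pair p S₁ S₂ := by
  rw [H69.centralizer_top, top_inf_eq] at h3
  refine ⟨h1, h1', h2, h2', h3, hJ ▸ le_top, ?_, h⟩
  rw [hJ, characteristic_iff_le_comap]
  intro φ x hx
  exact characteristic_iff_le_comap.1 h2' ((topEquiv.symm.trans φ).trans topEquiv) hx

theorem inf_Z_ne_bot (hS : IsPGroup p S) {N : Subgroup S} (hN : N.Characteristic) (h : N ≠ ⊥) :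
    N ⊓ (⊤ ⊓ 𝐂((⊤ : Subgroup S))) ≠ ⊥ := by
  rw [H69.centralizer_top, top_inf_eq]
  exact H5.inf_center_ne_bot hS N h

theorem char_Z : (⊤ ⊓ 𝐂((⊤ : Subgroup S)) : Subgroup S).Characteristic :=
  char_of_map fun φ hφ e => by rw [map_inf_centralizer hφ, e]

theorem le_c_of_jt (hJ : jt S = ⊤) {G : Type*} [Group G] {τ : S →* G}
    (hτ : Function.Injective τ) :
    (⊤ : Subgroup S).map τ ≤ 𝐂(centerThompsonAOf ((⊤ : Subgroup S).map τ)) := by
  have := map_jt hτ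
  rw [hJ] at this
  exact this.le.trans inf_le_right

theorem two_emb (hJ : (⊤ : Subgroup S) ≤ thompsonSubgroupAOf ⊤)
    (hcl : ∀ A ∈ maxAb (⊤ : Subgroup S), CLin ⊤ A)
    (hZ : IsElementaryAbelian p (⊤ ⊓ 𝐂((⊤ : Subgroup S)) : Subgroup S)) {G G' : Type u} [Group G] [Finite G]
    [Group G'] [Finite G'] {τ : S →* G} {τ' : S →* G'} (hτ : Function.Injective τ)
    (hτ' : Function.Injective τ') {q q' : ℕ} {M : Subgroup G} {M' : Subgroup G'}
    (h : PU p q ⊤ ((⊤ : Subgroup S).map τ) M) (h' : PU p q' ⊤ ((⊤ : Subgroup S).map τ') M')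
    (hn : ¬ ⊤ ≤ 𝐍((⊤ ⊓ 𝐂((⊤ : Subgroup S)) ⊓ s0 p ⊤ : Subgroup S).map τ))
    (hn' : ¬ ⊤ ≤ 𝐍((⊤ ⊓ 𝐂((⊤ : Subgroup S)) ⊓ s0 p ⊤ : Subgroup S).map τ')) :
    CDin ⊤ ((pCoreOf p ⊤).comap τ') ∧
      ⊤ ⊓ 𝐂((pCoreOf p ⊤).comap τ') ≤ (pCoreOf p ⊤).comap τ ∧
      ⊤ ≤ 𝐍(((pCoreOf p ⊤).comap τ ⊓ (pCoreOf p ⊤).comap τ').map τ) := by
  obtain ⟨X, _, _, f, f', hf, hf', e⟩ := exists_common hτ hτ'
  have hσ : Function.Injective (f.comp τ) := hf.comp hτ
  have k := h.map hf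
  have k' := h'.map hf'
  rw [Subgroup.map_map] at k k'
  rw [← e] at k'
  obtain ⟨k, k1⟩ := hg_of_map hσ hJ hcl hZ k (by
    rwa [← Subgroup.map_map, le_normalizer_map_iff hf])
  obtain ⟨k', -⟩ := hg_of_map hσ hJ hcl hZ k' (by
    rwa [e, ← Subgroup.map_map, le_normalizer_map_iff hf'])
  have e1 : ((pCoreOf p ⊤).comap τ).map (f.comp τ) = pCoreOf p ((⊤ : Subgroup G).map f) := by
    rw [← Subgroup.map_map, map_comap_eq_self (h.Q_le.trans (map_le_range _ _)),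
      H70.map_pCoreOf hf]
  have e2 : ((pCoreOf p ⊤).comap τ').map (f.comp τ) = pCoreOf p ((⊤ : Subgroup G').map f') := by
    rw [e, ← Subgroup.map_map, map_comap_eq_self (h'.Q_le.trans (map_le_range _ _)),
      H70.map_pCoreOf hf']
  obtain ⟨k2, k3⟩ := k.normal_inf k' k1
  refine ⟨(cdin_map_iff hσ).1 (e2 ▸ k'.cdT), (map_le_map_iff_of_injective hσ).1 ?_, ?_⟩
  · rwa [map_inf_centralizer hσ, e1, e2, k'.centT]
  · rwa [← le_normalizer_map_iff hf, Subgroup.map_map, map_inf _ _ _ hσ, e1, e2]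

theorem pair_hard (hS : IsPGroup p S) (hJ : (⊤ : Subgroup S) ≤ thompsonSubgroupAOf ⊤)
    (hcl : ∀ A ∈ maxAb (⊤ : Subgroup S), CLin ⊤ A)
    (hZ : IsElementaryAbelian p (⊤ ⊓ 𝐂((⊤ : Subgroup S)) : Subgroup S)) (h0 : s0 p (⊤ : Subgroup S) ≠ ⊥) :
    ∃ S₁ S₂ : Subgroup S, Pair p S₁ S₂ ∧ maxCentralProduct S₂ = maxCentralProduct (jt S) := by
  have hc : (s0 p (⊤ : Subgroup S)).Characteristic :=
    char_of_map fun φ hφ e => by rw [map_s0 hφ, e]
  have hc' : (⊤ ⊓ 𝐂((⊤ : Subgroup S)) ⊓ s0 p ⊤ : Subgroup S).Characteristic :=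
    char_of_map fun φ hφ e => by rw [map_inf _ _ _ hφ, map_inf_centralizer hφ, map_s0 hφ, e]
  have h1 := inf_Z_ne_bot hS hc h0
  rw [inf_comm] at h1
  have hjt : jt S = ⊤ := by
    rw [jt, ← thompsonSubgroupAOf_top, top_le_iff.1 hJ, eq_top_iff]
    exact le_centralizer_comm.1 inf_le_right
  let 𝒯 : Set (Subgroup S) := {T | ∃ (G : Type u) (_ : Group G) (_ : Finite G) (τ : S →* G)
    (q : ℕ) (M : Subgroup G), Function.Injective τ ∧ PU p q ⊤ ((⊤ : Subgroup S).map τ) M ∧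
      ¬ ⊤ ≤ 𝐍((⊤ ⊓ 𝐂((⊤ : Subgroup S)) ⊓ s0 p ⊤ : Subgroup S).map τ) ∧ T = (pCoreOf p ⊤).comap τ}
  have key : ∀ T ∈ 𝒯, ∀ T' ∈ 𝒯, CDin ⊤ T' ∧ ⊤ ⊓ 𝐂(T') ≤ T := by
    rintro _ ⟨G, _, _, τ, q, M, hτ, h, hn, rfl⟩ _ ⟨G', _, _, τ', q', M', hτ', h', hn', rfl⟩
    exact (two_emb hJ hcl hZ hτ hτ' h h' hn hn').imp_right And.left
  obtain ⟨h2, h3⟩ := (cdin_self hJ hcl).inf_sInf fun T hT => (key T hT T hT).1
  rw [top_inf_eq (sInf 𝒯)] at h2 h3
  have hZ2 : ⊤ ⊓ 𝐂((⊤ : Subgroup S)) ≤ sInf 𝒯 := le_sInf fun T hT =>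
    (inf_le_inf_left _ (H69.centralizer_anti le_top)).trans (key T hT T hT).2
  have h4 := h2.cl (by
    rw [h3]
    exact sup_le hZ2 (iSup₂_le fun T' hT' => le_sInf fun T hT => (key T hT T' hT').2))
  refine ⟨_, sInf 𝒯, pair_top hjt h1 (fun h5 => h1 (le_bot_iff.1 (inf_le_left.trans
    (hZ2.trans h5.le)))) hc' ?_ inf_le_left fun G _ _ τ q M hτ h => ?_,
    hjt ▸ max_eq_of_clin h4 le_rfl le_top⟩
  · rw [characteristic_iff_le_comap]
    intro φ x hx
    rw [mem_comap, Subgroup.mem_sInf]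
    rintro _ ⟨G, _, _, τ, q, M, hτ, h, hn, rfl⟩
    refine Subgroup.mem_sInf.1 hx _ ⟨G, _, ‹_›, τ.comp φ.toMonoidHom, q, M, hτ.comp φ.injective,
      ?_, ?_, rfl⟩
    · rwa [← Subgroup.map_map, map_top_of_surjective _ φ.surjective]
    · rwa [← Subgroup.map_map, characteristic_iff_map_eq.1 hc' φ]
  · refine or_iff_not_imp_left.2 fun hn => le_normalizer_of_cj_le fun g hg y hy => ?_
    obtain ⟨_, ⟨x, hx, rfl⟩, rfl⟩ := mem_cj'.1 hy
    have h5 : ∀ T ∈ 𝒯, ∃ y ∈ T, τ y = g * τ x * g⁻¹ := by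
      rintro _ ⟨G', _, _, τ', q', M', hτ', h', hn', rfl⟩
      obtain ⟨y, hy, e⟩ := H69.conj_mem_of_mem_normalizer
        ((two_emb hJ hcl hZ hτ hτ' h h' hn hn').2.2 hg) (mem_map_of_mem τ (mem_inf.2
          ⟨Subgroup.mem_sInf.1 hx _ ⟨G, _, ‹_›, τ, q, M, hτ, h, hn, rfl⟩,
            Subgroup.mem_sInf.1 hx _ ⟨G', _, ‹_›, τ', q', M', hτ', h', hn', rfl⟩⟩))
      exact ⟨y, hy.2, e⟩
    obtain ⟨y, -, e⟩ := h5 _ ⟨G, _, ‹_›, τ, q, M, hτ, h, hn, rfl⟩
    refine ⟨y, Subgroup.mem_sInf.2 fun T hT => ?_, e⟩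
    obtain ⟨y', hy', e'⟩ := h5 T hT
    rwa [hτ (e.trans e'.symm)]

theorem gn_main [Nontrivial S] (hS : IsPGroup p S) :
    (∃ S₁ S₂ : Subgroup S, Pair p S₁ S₂ ∧ maxCentralProduct S₂ = maxCentralProduct (jt S)) ∨
      (¬ IsMulCommutative S ∧ thompsonSubgroupA S = ⊤ ∧
        (∀ A ∈ maxAbelianSubgroups S, IsCentrallyLarge A) ∧
        IsElementaryAbelian p (center S) ∧ s0 p (⊤ : Subgroup S) = ⊥) := by
  by_cases h0 : IsMulCommutative S
  · refine Or.inl ⟨_, _, pair_jt top_ne_bot inferInstance (le_inf le_rfl fun x _ y _ =>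
      mul_comm' y x) fun G _ _ τ q M hτ h => ?_, rfl⟩
    refine absurd (fun x hx => h.charP ⟨trivial, fun y hy => ?_⟩) h.not_le_Q
    obtain ⟨x, -, rfl⟩ := hx
    obtain ⟨y, -, rfl⟩ := h.Q_le hy
    rw [← map_mul, ← map_mul, mul_comm' y x]
  by_cases h1 : ⁅centerThompsonAOf (⊤ : Subgroup S), (⊤ : Subgroup S)⁆ = ⊥; swap
  · have hc : (⁅centerThompsonAOf (⊤ : Subgroup S), (⊤ : Subgroup S)⁆).Characteristic :=
      char_of_map fun φ hφ e => by rw [map_commutator, map_centerThompsonAOf hφ, e]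
    have := char_Z (S := S)
    refine Or.inl ⟨_, _, pair_jt (inf_Z_ne_bot hS hc h1) inferInstance inf_le_right
      fun G _ _ τ q M hτ h => ?_, rfl⟩
    rw [map_inf _ _ _ hτ, map_commutator, map_centerThompsonAOf hτ, map_inf_centralizer hτ,
      map_jt hτ]
    exact h.jt_comm
  have hjt : jt S = ⊤ := by
    rw [jt, ← zj_top, eq_top_iff]
    exact le_centralizer_comm.1 (le_centralizer_of_commutator_eq_bot h1)
  by_cases h2 : powerClosure p 1 (⊤ ⊓ 𝐂((⊤ : Subgroup S)) : Subgroup S) = ⊥; swap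
  · have := char_Z (S := S)
    refine Or.inl ⟨_, _, pair_jt h2 (H81.powerClosure_characteristic _) (H81.powerClosure_le _)
      fun G _ _ τ q M hτ h => ?_, rfl⟩
    rw [H81.map_powerClosure, map_inf_centralizer hτ, map_jt hτ]
    exact h.jt_pow
  have hZ : IsElementaryAbelian p (⊤ ⊓ 𝐂((⊤ : Subgroup S)) : Subgroup S) :=
    EA.iff_mem.2 ⟨fun a _ b hb => (mem_inf.1 hb).2 a trivial, fun a ha => by
      simpa using H81.powerClosure_le_iff.1 h2.le a ha⟩
  obtain ⟨Q, hQ⟩ := exists_mclin (⊤ : Subgroup S)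
  by_cases h3 : ⁅Q, Q⁆ = ⊥; swap
  · have hc : (⁅Q, Q⁆).Characteristic := char_of_map fun φ hφ e => by
      rw [map_commutator]
      exact MCLin.commutator_eq (e ▸ (mclin_map_iff hφ).2 hQ) hQ
    have := char_Z (S := S)
    have h4 : Q ≤ sSup {R | MCLin ⊤ R} := le_sSup hQ
    refine Or.inl ⟨_, _, pair_top hjt (S₁ := ⊤ ⊓ 𝐂((⊤ : Subgroup S)) ⊓ ⁅Q, Q⁆)
      (inf_comm ⁅Q, Q⁆ _ ▸ inf_Z_ne_bot hS hc h3) (fun h5 => h3 (le_bot_iff.1
        ((H69.commutator_le_of_le h4 h4).trans h5.le))) inferInstance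
      (char_of_map fun φ hφ e => by rw [map_mclJ hφ, e]) inf_le_left
      fun G _ _ τ q M hτ h => ?_, by rw [hjt]; exact max_eq_of_clin hQ.1 h4 le_top⟩
    rw [map_inf _ _ _ hτ, map_commutator, map_inf_centralizer hτ, map_mclJ hτ]
    exact (h.mcl_commutator (le_c_of_jt hjt hτ) ((mclin_map_iff hτ).2 hQ)).imp_left
      le_normalizer_of_le_centralizer
  have h4 := H70.CD.MCL.iff_maxAb (mclin_top_iff.1 hQ) (isMulCommutative_iff_mem.2
    fun a ha b hb => le_centralizer_of_commutator_eq_bot h3 hb a ha)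
  have hcl : ∀ A ∈ maxAbelianSubgroups S, IsCentrallyLarge A := fun A hA => ((h4 A).2 hA).1
  have hJ : thompsonSubgroupA S = ⊤ := top_le_iff.1 (hjt.ge.trans ((H70.CD.CL.jtilde_le
    (H70.CD.CL.sup_thompson (mclin_top_iff.1 hQ).1) le_sup_right).trans (sup_le (by
      rw [← thompsonSubgroupAOf_top]
      refine le_thompsonSubgroupAOf ?_
      rw [maxAb_top]
      exact (h4 Q).1 (mclin_top_iff.1 hQ)) le_rfl)))
  by_cases h5 : s0 p (⊤ : Subgroup S) = ⊥
  · rw [H69.centralizer_top, top_inf_eq] at hZ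
    exact Or.inr ⟨h0, hJ, hcl, hZ, h5⟩
  exact Or.inl (pair_hard hS (by rw [thompsonSubgroupAOf_top, hJ])
    (fun A hA => clin_top_iff.2 (hcl A (by rwa [maxAb_top] at hA))) hZ h5)

open scoped Pointwise in
theorem exc_of [Nontrivial S] (hS : IsPGroup p S) (hJ : thompsonSubgroupA S = ⊤)
    (hcl : ∀ A ∈ maxAbelianSubgroups S, IsCentrallyLarge A)
    (hZ : IsElementaryAbelian p (center S)) (h0 : s0 p (⊤ : Subgroup S) = ⊥) :
    IsElementaryAbelian p (frattini S) ∧ (p = 2 → frattini S ≤ center S) ∧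
      (p = 3 → frattini S ≤ Subgroup.upperCentralSeries S 2) ∧
      (3 < p → frattini S ≤ center S ∧ Monoid.exponent S = p) ∧
      ∀ A ∈ maxAbelianSubgroups S, ∀ B ∈ maxAbelianSubgroups S, ∀ Q : Subgroup S,
        Nat.card A ^ 2 = Nat.card S * Nat.card (center S) ∧
        Nat.card Q * Nat.card (center Q) ≤ Nat.card S * Nat.card (center S) ∧
        ((A ⊔ B : Subgroup S) : Set S) = (A : Set S) * (B : Set S) ∧
        A ⊔ B = centralizer ((A ⊓ B : Subgroup S) : Set S) := by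
  have h1 : ∀ {N : Subgroup S}, ⁅N, (⊤ : Subgroup S)⁆ = ⊥ → N ≤ center S := fun h =>
    (le_centralizer_of_commutator_eq_bot h).trans H69.centralizer_top.le
  have h2 : fr (frattini S) = ⊥ → IsElementaryAbelian p (frattini S) := fun h => by
    obtain ⟨h3, h4⟩ := (H5.map_frattini_le_iff (hS.to_subgroup _)).1 h.le
    exact EA.iff_mem.2 ⟨fun a ha b hb =>
      le_centralizer_of_commutator_eq_bot (le_bot_iff.1 h3) hb a ha, h4⟩
  have h3 : Nat.card S * Nat.card (center S) = maxCentralProduct S := by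
    obtain ⟨A, hA⟩ := H70.CD.exists_maxAb (P := S)
    have := H70.CD.cl_iff_zeta.1 (H70.CD.CL.sup_thompson (hcl A hA))
    rwa [hJ, sup_top_eq, H70.CD.zeta_eq, top_inf_eq, H69.centralizer_top, card_top] at this
  rw [s0, fr_top hS] at h0
  refine ⟨?_, fun h => ?_, fun h => ?_, fun h => ?_, fun A hA B hB Q => ⟨?_, ?_,
    H70.CD.Large.coe_sup (H70.CD.CL.large (hcl A hA)) (H70.CD.CL.large (hcl B hB)), ?_⟩⟩
  · split_ifs at h0 <;> rw [sup_eq_bot_iff] at h0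
    exacts [h2 h0.2, h2 h0.2, EA.mono hZ (h1 h0.1)]
  · rw [if_pos h, sup_eq_bot_iff] at h0
    exact h1 h0.1
  · rw [if_neg (by omega), if_pos h, sup_eq_bot_iff] at h0
    intro x hx
    refine Subgroup.mem_upperCentralSeries_succ_iff.2 fun y => ?_
    rw [Subgroup.upperCentralSeries_one]
    exact h1 h0.1 (commutator_mem_commutator hx (mem_top y))
  · rw [if_neg (by omega), if_neg (by omega), sup_eq_bot_iff] at h0
    refine ⟨h1 h0.1, (Monoid.exponent_eq_prime_iff Fact.out).2 fun g hg => orderOf_eq_prime ?_ hg⟩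
    simpa using H81.powerClosure_le_iff.1 h0.2.le g trivial
  · rw [h3, ← H70.CD.cl_iff_zeta.1 (hcl A hA), H70.CD.zeta_of_comm hA.1, sq]
  · rw [h3]; exact H70.CD.zeta_le Q
  · rw [H70.CD.Large.centralizer_inf (H70.CD.CL.large (hcl A hA)) (H70.CD.CL.large (hcl B hB)),
      H70.CD.centralizer_eq_of_maxAb hA, H70.CD.centralizer_eq_of_maxAb hB]

theorem pair_phi [Nontrivial S] (hS : IsPGroup p S) (hJ : thompsonSubgroupA S = ⊤)
    (he : ¬ ∃ A ∈ maxAbelianSubgroups S, IsElementaryAbelian p A) :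
    Pair p (⊤ ⊓ 𝐂((⊤ : Subgroup S))) (phiJoin p ⊤) := by
  have hjt : jt S = ⊤ := by
    rw [jt, hJ, eq_top_iff]
    exact le_centralizer_comm.1 inf_le_right
  refine pair_top hjt (inf_centralizer_ne_bot (isPGroup_top_iff.2 hS) top_ne_bot) (fun h1 => he ?_)
    char_Z (char_of_map fun φ hφ e => by rw [map_phiJ hφ, e]) le_rfl fun G _ _ τ q M hτ h => ?_
  · obtain ⟨R, hR⟩ := exists_mclmax p (⊤ : Subgroup S)
    have h2 := le_phiJoin hR
    rw [h1, H5.map_frattini_le_iff (hS.to_subgroup _)] at h2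
    have h3 : IsElementaryAbelian p R := EA.iff_mem.2
      ⟨fun a ha b hb => le_centralizer_of_commutator_eq_bot (le_bot_iff.1 h2.1) hb a ha, h2.2⟩
    exact ⟨R, (H70.CD.MCL.iff_maxAb (mclin_top_iff.1 hR.1) h3.1 R).1 (mclin_top_iff.1 hR.1), h3⟩
  · rw [map_inf_centralizer hτ, map_phiJ hτ, or_iff_not_imp_left]
    exact fun hY => h.phiJoin_normal hY (le_c_of_jt hjt hτ)

theorem OneNormal.situation {S₁ S₂ : Subgroup S} (h : OneNormal p S₁ S₂) (G : Type u) [Group G]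
    [Finite G] (P : Subgroup G) (e : S ≃* P) (hP : IsPushingUpSituation p P) :
    (S₁.map (P.subtype.comp e.toMonoidHom)).Normal ∨
      (S₂.map (P.subtype.comp e.toMonoidHom)).Normal := by
  obtain ⟨q, M, hM⟩ := exists_pu_of_situation hP
  rw [normal_iff_top_le_normalizer, normal_iff_top_le_normalizer]
  refine h G _ q M (P.subtype_injective.comp e.injective) ?_
  rwa [← Subgroup.map_map, map_top_of_surjective _ e.surjective, H69.map_subtype_top]

end H68.Push
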